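import Cfsg.Agent.BSW.Syl

set_option autoImplicit false

/-! # Bender's TI theorem: the basic configuration (helper2) -/

namespace Cfsg.Agent.BTI

open scoped Classical

universe u

variable {G : Type u} [Group G]

/-- The TI configuration. -/
structure Hyp (M : Subgroup G) (z : G) : Prop where
  ne : ∃ x ∈ M, x ≠ 1
  ti : ∀ g a, a ∈ M → a ≠ 1 → g * a * g⁻¹ ∈ M → g ∈ Subgroup.normalizer (M : Set G)
  z1 : z ≠ 1
  zz : z * z = 1
  zN : z ∈ Subgroup.normalizer (M : Set G)
  fac : ∀ n ∈ Subgroup.normalizer (M : Set G), ∃ a ∈ M, ∃ c ∈ Subgroup.normalizer (M : Set G), c * z = z * c ∧ n = a * c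
  cent : ∀ x ∈ M, x ≠ 1 → ∀ w : G, w * w = 1 → w * x = x * w → w = 1

variable [Finite G] {M : Subgroup G} {z : G}

theorem mem_norm {n a : G} (hn : n ∈ Subgroup.normalizer (M : Set G)) (ha : a ∈ M) : n * a * n⁻¹ ∈ M :=
  (Subgroup.mem_normalizer_iff.1 hn a).1 ha

theorem mem_norm' {n a : G} (hn : n ∈ Subgroup.normalizer (M : Set G)) (ha : a ∈ M) : n⁻¹ * a * n ∈ M := by
  have := mem_norm ((Subgroup.normalizer (M : Set G)).inv_mem hn) ha
  rwa [inv_inv] at this

theorem le_norm {a : G} (ha : a ∈ M) : a ∈ Subgroup.normalizer (M : Set G) := Subgroup.le_normalizer ha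

theorem out_ne_one {u : G} (hu : u ∉ Subgroup.normalizer (M : Set G)) : u ≠ 1 := by
  rintro rfl; exact hu (Subgroup.one_mem _)

namespace Hyp

variable (H : Hyp M z)
include H

theorem sq_ne {a : G} (ha : a ∈ M) (h : a * a = 1) : a = 1 := by
  by_contra h1
  exact h1 (H.cent a ha h1 a h rfl)

/-- every involution of `N(M)` inverts `M` -/
theorem inverts {w : G} (hw : w ∈ Subgroup.normalizer (M : Set G)) (hw1 : w ≠ 1) (hww : w * w = 1) :
    ∀ a ∈ M, w * a * w⁻¹ = a⁻¹ := by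
  letI := Fintype.ofFinite G
  refine BSW.inverts_of_fpf hww (fun c hc => mem_norm hw hc) (fun c hc h => ?_)
  by_contra hc1
  exact hw1 (H.cent c hc hc1 w hww (by rw [mul_inv_eq_iff_eq_mul] at h; exact h))

theorem comm : ∀ a ∈ M, ∀ b ∈ M, a * b = b * a := by
  letI := Fintype.ofFinite G
  exact BSW.comm_of_inverts (H.inverts H.zN H.z1 H.zz)

theorem cent_mem {x g : G} (hx : x ∈ M) (hx1 : x ≠ 1) (h : g * x = x * g) : g ∈ Subgroup.normalizer (M : Set G) :=
  H.ti g x hx hx1 (by rw [h, mul_inv_cancel_right]; exact hx)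

theorem zinv : z⁻¹ = z := inv_eq_of_mul_eq_one_left H.zz

theorem z_conj {a : G} (ha : a ∈ M) : z * a * z⁻¹ = a⁻¹ := H.inverts H.zN H.z1 H.zz a ha

/-- square roots in `M` -/
theorem exists_sqrt {a : G} (ha : a ∈ M) : ∃ b ∈ M, b * b = a := by
  have hinj : Function.Injective (fun b : M => (⟨(b : G) * b, M.mul_mem b.2 b.2⟩ : M)) := by
    intro b c h
    have h1 : (b : G) * b = c * c := congrArg Subtype.val h
    have h2 : ((b : G) * (c : G)⁻¹) * ((b : G) * (c : G)⁻¹) = 1 := by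
      have hcb : (c : G)⁻¹ * b = b * (c : G)⁻¹ := H.comm _ (M.inv_mem c.2) _ b.2
      calc ((b : G) * (c : G)⁻¹) * ((b : G) * (c : G)⁻¹) = b * ((c : G)⁻¹ * b) * (c : G)⁻¹ := by group
        _ = (b * b) * ((c : G)⁻¹ * (c : G)⁻¹) := by rw [hcb]; group
        _ = 1 := by rw [h1]; group
    have h3 := H.sq_ne (M.mul_mem b.2 (M.inv_mem c.2)) h2
    exact Subtype.ext (mul_inv_eq_one.1 h3)
  obtain ⟨b, hb⟩ := (Finite.injective_iff_surjective.1 hinj) ⟨a, ha⟩
  exact ⟨b, b.2, congrArg Subtype.val hb⟩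

theorem conj_z {b : G} (hb : b ∈ M) : b * z * b⁻¹ = b * b * z := by
  have h1 := H.z_conj (M.inv_mem hb)
  rw [inv_inv, mul_inv_eq_iff_eq_mul] at h1
  rw [mul_assoc, h1, ← mul_assoc]

/-- the involution of `C_N(z)` -/
theorem cz {c : G} (hc : c ∈ Subgroup.normalizer (M : Set G)) (hcz : c * z = z * c) (hcc : c * c = 1) : c = 1 ∨ c = z := by
  by_cases hc1 : c = 1
  · exact Or.inl hc1
  · right
    obtain ⟨x, hx, hx1⟩ := H.ne
    have h1 := H.inverts hc hc1 hcc x hx
    have h2 := H.z_conj hx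
    have h3 : (c * z) * (c * z) = 1 := by
      calc (c * z) * (c * z) = (c * z) * (z * c) := by rw [hcz]
        _ = c * (z * z) * c := by group
        _ = 1 := by rw [H.zz, mul_one, hcc]
    have h4 : c * z * x = x * (c * z) := by
      have : c * (z * x * z⁻¹) * c⁻¹ = x := by
        rw [h2]
        calc c * x⁻¹ * c⁻¹ = (c * x * c⁻¹)⁻¹ := by group
          _ = x := by rw [h1, inv_inv]
      calc c * z * x = (c * (z * x * z⁻¹) * c⁻¹) * (c * z) := by group
        _ = _ := by rw [this]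
    have h5 := H.cent x hx hx1 (c * z) h3 h4
    have h6 := eq_inv_of_mul_eq_one_left h5
    rw [h6, H.zinv]

/-- involutions of `N` are in `Mz` -/
theorem invN {w : G} (hw : w ∈ Subgroup.normalizer (M : Set G)) (hw1 : w ≠ 1) (hww : w * w = 1) :
    ∃ a ∈ M, w = a * z := by
  obtain ⟨a, ha, c, hc, hcz, rfl⟩ := H.fac w hw
  have hcc : c * c = 1 := by
    have h1 : a * (c * a * c⁻¹) * (c * c) = 1 := by rw [← hww]; group
    have h2 : c * c ∈ M := by
      have h3 : c * c = (a * (c * a * c⁻¹))⁻¹ := eq_inv_of_mul_eq_one_right h1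
      rw [h3]
      exact M.inv_mem (M.mul_mem ha (mem_norm hc ha))
    have h3 := H.z_conj h2
    have h4 : z * (c * c) * z⁻¹ = c * c := by
      have h5 : z * (c * c) = (c * c) * z := by
        calc z * (c * c) = (z * c) * c := by group
          _ = (c * z) * c := by rw [hcz]
          _ = c * (z * c) := by group
          _ = c * (c * z) := by rw [hcz]
          _ = (c * c) * z := by group
      rw [h5, mul_inv_cancel_right]
    rw [h4] at h3
    exact H.sq_ne h2 (by nth_rewrite 2 [h3]; exact mul_inv_cancel _)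
  rcases H.cz hc hcz hcc with rfl | rfl
  · exfalso
    rw [mul_one] at hw1 hww
    exact hw1 (H.sq_ne ha hww)
  · exact ⟨a, ha, rfl⟩

theorem Mz {a : G} (ha : a ∈ M) : (a * z) ∈ Subgroup.normalizer (M : Set G) ∧ a * z ≠ 1 ∧ (a * z) * (a * z) = 1 := by
  refine ⟨Subgroup.mul_mem _ (le_norm ha) H.zN, ?_, ?_⟩
  · intro h
    have h1 : z ∈ M := by
      have := eq_inv_of_mul_eq_one_right h
      rw [this]; exact M.inv_mem ha
    exact H.z1 (H.sq_ne h1 H.zz)
  · have h1 := H.z_conj ha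
    calc (a * z) * (a * z) = a * (z * a * z⁻¹) * (z * z) := by group
      _ = 1 := by rw [h1, H.zz]; group

/-- involutions of `N` are conjugate to `z` under `M` -/
theorem invN' {w : G} (hw : w ∈ Subgroup.normalizer (M : Set G)) (hw1 : w ≠ 1) (hww : w * w = 1) :
    ∃ b ∈ M, w = b * z * b⁻¹ := by
  obtain ⟨a, ha, rfl⟩ := H.invN hw hw1 hww
  obtain ⟨b, hb, rfl⟩ := H.exists_sqrt ha
  exact ⟨b, hb, (H.conj_z hb).symm⟩

/-- a coset `Mg` outside `N` contains at most one involution -/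
theorem uniq {g a b : G} (hg : g ∉ Subgroup.normalizer (M : Set G)) (ha : a ∈ M) (hb : b ∈ M)
    (h1 : (a * g) * (a * g) = 1) (h2 : (b * g) * (b * g) = 1) : a = b := by
  by_contra hne
  apply hg
  -- x = a b⁻¹ = (a g) (b g), inverted by `b g`
  have hx : (a * g) * (b * g) = a * b⁻¹ := by
    have h3 : (b * g)⁻¹ = b * g := inv_eq_of_mul_eq_one_left h2
    rw [← h3]; group
  have hinv : (b * g) * (a * b⁻¹) * (b * g)⁻¹ = (a * b⁻¹)⁻¹ := by
    have h3 : (b * g)⁻¹ = b * g := inv_eq_of_mul_eq_one_left h2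
    have h4 : (a * g)⁻¹ = a * g := inv_eq_of_mul_eq_one_left h1
    have h5 : ((a * g) * (b * g))⁻¹ = (b * g) * (a * g) := by rw [mul_inv_rev (a * g) (b * g), h3, h4]
    rw [← hx, h5, h3]
    calc b * g * (a * g * (b * g)) * (b * g) = (b * g) * (a * g) * ((b * g) * (b * g)) := by group
      _ = _ := by rw [h2, mul_one]
  have h5 : b * g ∈ Subgroup.normalizer (M : Set G) := by
    apply H.ti (b * g) (a * b⁻¹) (M.mul_mem ha (M.inv_mem hb))
    · intro h; exact hne (mul_inv_eq_one.1 h)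
    · rw [hinv]; exact M.inv_mem (M.mul_mem ha (M.inv_mem hb))
  have h6 := Subgroup.mul_mem _ (Subgroup.inv_mem _ (le_norm hb)) h5
  rwa [inv_mul_cancel_left] at h6

/-- two sided cosets are free outside `N` -/
theorem free {g a b a' b' : G} (hg : g ∉ Subgroup.normalizer (M : Set G)) (ha : a ∈ M) (hb : b ∈ M) (ha' : a' ∈ M)
    (hb' : b' ∈ M) (h : a * g * b = a' * g * b') : a = a' ∧ b = b' := by
  have h1 : a'⁻¹ * a * g = g * (b' * b⁻¹) := by
    calc a'⁻¹ * a * g = a'⁻¹ * (a * g * b) * b⁻¹ := by group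
      _ = _ := by rw [h]; group
  have h2 : g * (b' * b⁻¹) * g⁻¹ = a'⁻¹ * a := by rw [← h1]; group
  by_cases h3 : b' * b⁻¹ = 1
  · have h4 : b' = b := mul_inv_eq_one.1 h3
    refine ⟨?_, h4.symm⟩
    rw [h3] at h2
    have h5 : a'⁻¹ * a = 1 := by rw [← h2]; group
    exact (inv_mul_eq_one.1 h5).symm
  · exact absurd (H.ti g _ (M.mul_mem hb' (M.inv_mem hb)) h3 (by rw [h2]; exact M.mul_mem (M.inv_mem ha') ha)) hg

end Hyp

end Cfsg.Agent.BTI
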