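import Cfsg.Agent.BTI.Quot
import Cfsg.Agent.H34.Sharp3Odd

set_option autoImplicit false

/-! # Identification of sharply 3-transitive groups with inverted two-point stabiliser (helper2) -/

namespace Cfsg.Agent.BTI

open scoped Classical
open Cfsg Cfsg.Agent.H34 Cfsg.Agent.H37.ZT

universe u v

theorem sharp3_iso_pgl_inv {G : Type u} {Ω : Type v} [Group G] [MulAction G Ω] [Finite Ω] [Finite G]
    (h : Sharp3 G Ω) {i z e : Ω} (hiz : i ≠ z) (hze : z ≠ e) (hie : i ≠ e)
    (hinv : ∀ s d : G, s • i = z → s • z = i → d • i = i → d • z = z → s * d * s⁻¹ = d⁻¹) :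
    ∃ (F : Type) (_ : Field F) (_ : Fintype F), Fintype.card F = Nat.card Ω - 1 ∧
      Nonempty (G ≃* Matrix.ProjGenLinGroup (Fin 2) F) := by
  obtain ⟨I, T, s, hI0, hI1, hA, hB, hss, hsi, hsz, hse, hsS⟩ := h.nfs i z e hiz hze hie
  let _I := I
  -- multiplication maps
  have hmul : ∀ a : {x : Ω // x ≠ i}, a ≠ 0 → ∃ g : G, g • i = i ∧ g • z = z ∧
      ∀ x : {x : Ω // x ≠ i}, g • (x : Ω) = ((x * a : {x : Ω // x ≠ i}) : Ω) := by
    intro a ha
    obtain ⟨g, hg, hx⟩ := hB a 0 ha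
    have hx' : ∀ x : {x : Ω // x ≠ i}, g • (x : Ω) = ((x * a : {x : Ω // x ≠ i}) : Ω) := by
      intro x
      rw [hx x]
      have : I.add (I.mul x a) 0 = x * a := add_zero _
      rw [this]
    refine ⟨g, hg, ?_, hx'⟩
    have h1 := hx' 0
    rw [nf_zero_mul] at h1
    have h2 : ((0 : {x : Ω // x ≠ i}) : Ω) = z := hI0
    rwa [h2] at h1
  have hcD : ∀ d d' : G, d • i = i → d • z = z → d' • i = i → d' • z = z → d * d' = d' * d := by
    intro d d' h1 h2 h3 h4
    have e1 := hinv s (d * d') hsi hsz (by rw [mul_smul, h3, h1]) (by rw [mul_smul, h4, h2])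
    have e2 := hinv s d hsi hsz h1 h2
    have e3 := hinv s d' hsi hsz h3 h4
    have e4 : s * (d * d') * s⁻¹ = (s * d * s⁻¹) * (s * d' * s⁻¹) := by group
    rw [e4, e2, e3, ← mul_inv_rev, inv_inj] at e1
    exact e1.symm
  have hone : ((1 : {x : Ω // x ≠ i}) : Ω) = e := hI1
  have hcomm : ∀ x y : {x : Ω // x ≠ i}, x * y = y * x := by
    intro x y
    by_cases hx : x = 0
    · rw [hx, nf_zero_mul, Cfsg.NearField.mul_zero]
    by_cases hy : y = 0
    · rw [hy, nf_zero_mul, Cfsg.NearField.mul_zero]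
    obtain ⟨g, hgi, hgz, hg⟩ := hmul x hx
    obtain ⟨k, hki, hkz, hk⟩ := hmul y hy
    have h1 := congrArg (fun g : G => g • ((1 : {x : Ω // x ≠ i}) : Ω)) (hcD g k hgi hgz hki hkz)
    simp only [mul_smul] at h1
    rw [hk 1, hg, one_mul, hg 1, hk, one_mul] at h1
    exact (Subtype.ext h1).symm
  have hSinv : ∀ x : {x : Ω // x ≠ i}, x ≠ 0 → x * T.S x = 1 := by
    intro x hx
    obtain ⟨g, hgi, hgz, hg⟩ := hmul x hx
    have h1 := hinv s g hsi hsz hgi hgz
    have hs' : s⁻¹ = s := inv_eq_of_mul_eq_one_left hss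
    rw [hs', eq_inv_iff_mul_eq_one] at h1
    -- apply to `e`
    have h2 := congrArg (fun g : G => g • ((T.S x : {x : Ω // x ≠ i}) : Ω)) h1
    simp only [mul_smul, one_smul] at h2
    have h3 : s • e = e := hse
    -- s g s g (S x) = S x;
    rw [hg (T.S x)] at h2
    have h4 : T.S x * x ≠ 0 := nf_mul_ne_zero (T.Sne x hx) hx
    rw [hsS _ h4] at h2
    rw [hg, T.Smul, T.SS] at h2
    have h5 : x * T.S x * x ≠ 0 := nf_mul_ne_zero (nf_mul_ne_zero hx (T.Sne x hx)) hx
    rw [hsS _ h5] at h2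
    have h6 := Subtype.ext h2
    have h7 := congrArg T.S h6
    rw [T.SS, T.SS] at h7
    -- x * S x * x = x
    exact nf_mul_right_cancel hx (h7.trans (one_mul x).symm)
  exact h.iso_pgl hiz hze hie I hI0 hcomm hA hB s hss hsi T.S hsS hSinv

variable {G : Type u} [Group G] [Finite G] {B F : Subgroup G}

theorem Quot.ident (Q : Quot B F) (hcomm : ∀ x ∈ F, ∀ y ∈ F, x * y = y * x) (hodd : Odd (Nat.card F)) {z : G} {b : G ⧸ B}
    (hb : b ≠ base B) (hz1 : z ≠ 1) (hzz : z * z = 1) (hz : z ∈ stab2 G (base B) b)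
    (hinv : ∀ s d : G, s • base B = b → s • b = base B → d ∈ stab2 G (base B) b → s * d * s⁻¹ = d⁻¹) :
    ∃ (K : Type) (_ : Field K) (_ : Fintype K), Fintype.card K = Nat.card F ∧
      ((Nat.card (stab2 G (base B) b) = Nat.card F - 1 ∧ Nonempty (G ≃* Matrix.ProjGenLinGroup (Fin 2) K)) ∨
       (2 * Nat.card (stab2 G (base B) b) = Nat.card F - 1 ∧ Nonempty (G ≃* Matrix.ProjectiveSpecialLinearGroup (Fin 2) K))) := by
  have hzgp := Q.zgp
  have hstab : stab2 G (base B) b ≠ ⊥ := by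
    intro h
    rw [h, Subgroup.mem_bot] at hz
    exact hz1 hz
  have hcq := Q.card_quot
  by_cases hs : Nat.card (stab2 G (base B) b) = Nat.card F - 1
  · -- sharply 3-transitive
    have h1 := stab2_third hzgp hb.symm (by rw [hcq, hs]; rfl)
    have h2 := sharp3_of h1.1 h1.2
    obtain ⟨t, ht, ht1⟩ : ∃ t ∈ stab2 G (base B) b, t ≠ 1 := ⟨z, hz, hz1⟩
    obtain ⟨c, hc1, hc2⟩ := hzgp.exists_third ht ht1
    obtain ⟨K, i1, i2, h3, h4⟩ := sharp3_iso_pgl_inv h2 hb.symm hc2.symm hc1.symm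
      (fun s d h1 h2 h3 h4 => hinv s d h1 h2 (mem_stab2.2 ⟨h3, h4⟩))
    refine ⟨K, i1, i2, ?_, Or.inl ⟨hs, h4⟩⟩
    rw [h3, hcq]; rfl
  · have hZ : IsZassenhausGroup G (G ⧸ B) := by
      refine ⟨⟨?_⟩, ?_, ?_, ⟨z, hz1, base B, b, hb.symm, (mem_stab2.1 hz).1, (mem_stab2.1 hz).2⟩, ?_⟩
      · intro g1 g2 h
        have h1 : g2⁻¹ * g1 = 1 := hzgp.faithful _ (fun a => by rw [mul_smul, h a, inv_smul_smul])
        exact (inv_mul_eq_one.1 h1).symm
      · rw [MulAction.is_two_pretransitive_iff]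
        intro a c d e hac hde
        exact hzgp.trans hac hde
      · intro g a b c h1 h2 h3 h4 h5 h6
        exact Q.three g h1 h2 h3 h4 h5 h6
      · intro L hL htr
        by_contra hcon
        push Not at hcon
        have h1 := Q.small_of_regular hodd hb hz1 hzz hz hL htr hcon
        apply hs
        have h2 := Q.stab2_card_le hb
        rw [h1] at h2 ⊢
        have h3 : Nat.card (stab2 G (base B) b) ≠ 1 := by
          intro h
          exact hstab (Subgroup.card_eq_one.1 h)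
        have h4 : 0 < Nat.card (stab2 G (base B) b) := Nat.card_pos
        omega
    rcases zass_abelian hZ hb.symm Q.isKer hcomm with h1 | ⟨h1, K, i1, i2, h2, h3, h4⟩
    · rw [hcq] at h1
      exact absurd h1 hs
    · rw [hcq] at h1 h3
      refine ⟨K, i1, i2, ?_, Or.inr ⟨by omega, h4⟩⟩
      rw [← Nat.card_eq_fintype_card]; omega

end Cfsg.Agent.BTI
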