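import Cfsg.Agent.BTI.Count
import Cfsg.Agent.BTI.Ident

set_option autoImplicit false

/-! # Bender's TI theorem: the linear case (helper2) -/

namespace Cfsg.Agent.BTI

open scoped Classical
open Cfsg Cfsg.Agent.H34 Cfsg.Agent.H37.ZT

universe u

variable {G : Type u} [Group G] [Finite G] {M : Subgroup G} {z : G}

/-- the centraliser of `z` in the normaliser -/
def CN (M : Subgroup G) (z : G) : Subgroup G := Subgroup.normalizer (M : Set G) ⊓ Subgroup.centralizer ({z} : Set G)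

theorem mem_CN {c : G} : c ∈ CN M z ↔ c ∈ Subgroup.normalizer (M : Set G) ∧ c * z = z * c := by
  rw [CN, Subgroup.mem_inf, Subgroup.mem_centralizer_singleton_iff]

namespace Hyp2

variable (H : Hyp2 M z)
include H

theorem exists_HC (hN : Subgroup.normalizer (M : Set G) ≠ ⊤) :
    ∃ u : G, u ∉ Subgroup.normalizer (M : Set G) ∧ u * z = z * u := by
  obtain ⟨g, hg⟩ : ∃ g : G, g ∉ Subgroup.normalizer (M : Set G) := by
    by_contra hcon
    push Not at hcon
    exact hN (eq_top_iff.2 fun g _ => hcon g)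
  obtain ⟨a, ha, h⟩ := H.all g hg
  have hw : a * g ∉ Subgroup.normalizer (M : Set G) := by
    intro h1
    apply hg
    have := Subgroup.mul_mem _ (Subgroup.inv_mem _ (le_norm ha)) h1
    rwa [inv_mul_cancel_left] at this
  obtain ⟨b, hb, h1⟩ := H.exists_comm hw h
  refine ⟨b⁻¹ * (a * g) * b, ?_, ?_⟩
  · have := H.conj_out (M.inv_mem hb) hw
    rwa [inv_inv] at this
  · calc b⁻¹ * (a * g) * b * z = b⁻¹ * ((a * g) * (b * z * b⁻¹)) * b := by group
      _ = b⁻¹ * ((b * z * b⁻¹) * (a * g)) * b := by rw [h1]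
      _ = _ := by group

omit [Finite G] in
theorem sq_mem_M [Finite G] {c : G} (hc : c ∈ Subgroup.normalizer (M : Set G)) (hcz : c * z = z * c) (hcc : c * c ∈ M) :
    c = 1 ∨ c = z := by
  apply H.cz hc hcz
  have h3 := H.z_conj hcc
  have h4 : z * (c * c) * z⁻¹ = c * c := by
    have h5 : z * (c * c) = (c * c) * z := by
      calc z * (c * c) = (z * c) * c := by group
        _ = (c * z) * c := by rw [hcz]
        _ = c * (z * c) := by group
        _ = c * (c * z) := by rw [hcz]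
        _ = (c * c) * z := by group
    rw [h5, mul_inv_cancel_right]
  rw [h4] at h3
  exact H.sq_ne hcc (by nth_rewrite 2 [h3]; exact mul_inv_cancel _)

theorem free' {u x : G} (hu : u ∉ Subgroup.normalizer (M : Set G)) (huz : u * z = z * u) (hx : x ∈ M) (hx1 : x ≠ 1) :
    u⁻¹ * x * u ∉ Subgroup.normalizer (M : Set G) := by
  intro hy
  have hy1 : z * (u⁻¹ * x * u) * z⁻¹ = (u⁻¹ * x * u)⁻¹ := by
    have h1 : z * u⁻¹ = u⁻¹ * z := by
      rw [eq_inv_mul_iff_mul_eq, ← mul_assoc, huz, mul_inv_cancel_right]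
    have h2 : u * z⁻¹ = z⁻¹ * u := by
      rw [eq_inv_mul_iff_mul_eq, ← mul_assoc, ← huz, mul_inv_cancel_right]
    calc z * (u⁻¹ * x * u) * z⁻¹ = (z * u⁻¹) * x * (u * z⁻¹) := by group
      _ = u⁻¹ * (z * x * z⁻¹) * u := by rw [h1, h2]; group
      _ = _ := by rw [H.z_conj hx]; group
  obtain ⟨a, ha, c, hc, hcz, h⟩ := H.fac _ hy
  have h1 : z * (a * c) * z⁻¹ = a⁻¹ * c := by
    calc z * (a * c) * z⁻¹ = (z * a * z⁻¹) * (z * c) * z⁻¹ := by group
      _ = a⁻¹ * (c * z) * z⁻¹ := by rw [H.z_conj ha, ← hcz]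
      _ = a⁻¹ * c := by group
  rw [h, h1] at hy1
  have h2 : c * c ∈ M := by
    have h3 : a⁻¹ * (c * a * c⁻¹) * (c * c) = 1 := by
      calc a⁻¹ * (c * a * c⁻¹) * (c * c) = (a⁻¹ * c) * (a * c) := by group
        _ = 1 := by rw [hy1, inv_mul_cancel]
    rw [eq_inv_of_mul_eq_one_right h3]
    exact M.inv_mem (M.mul_mem (M.inv_mem ha) (mem_norm hc ha))
  rcases H.sq_mem_M hc hcz h2 with rfl | rfl
  · rw [mul_one] at h
    apply hu
    have h3 := H.ti u⁻¹ x hx hx1 (by rw [inv_inv, h]; exact ha)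
    have := Subgroup.inv_mem _ h3
    rwa [inv_inv] at this
  · have h3 := (H.Mz ha).2.2
    rw [← h] at h3
    apply hx1
    apply H.sq_ne hx
    have h4 : x * x = u * ((u⁻¹ * x * u) * (u⁻¹ * x * u)) * u⁻¹ := by group
    rw [h4, h3]; group

theorem free2 {g x : G} (hg : g ∉ Subgroup.normalizer (M : Set G)) (hx : x ∈ M) (hx1 : x ≠ 1) :
    g⁻¹ * x * g ∉ Subgroup.normalizer (M : Set G) := by
  intro hy
  obtain ⟨a, ha, h⟩ := H.all g hg
  have hw : a * g ∉ Subgroup.normalizer (M : Set G) := by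
    intro h1
    apply hg
    have := Subgroup.mul_mem _ (Subgroup.inv_mem _ (le_norm ha)) h1
    rwa [inv_mul_cancel_left] at this
  obtain ⟨b, hb, h1⟩ := H.exists_comm hw h
  have hu1 : b⁻¹ * (a * g) * b ∉ Subgroup.normalizer (M : Set G) := by
    have := H.conj_out (M.inv_mem hb) hw
    rwa [inv_inv] at this
  have hu2 : b⁻¹ * (a * g) * b * z = z * (b⁻¹ * (a * g) * b) := by
    calc b⁻¹ * (a * g) * b * z = b⁻¹ * ((a * g) * (b * z * b⁻¹)) * b := by group
      _ = b⁻¹ * ((b * z * b⁻¹) * (a * g)) * b := by rw [h1]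
      _ = _ := by group
  apply H.free' hu1 hu2 hx hx1
  have h2 : (a⁻¹ * b) * x * (a⁻¹ * b)⁻¹ = x := by
    rw [H.comm _ (M.mul_mem (M.inv_mem ha) hb) x hx, mul_inv_cancel_right]
  have h3 : (b⁻¹ * (a * g) * b)⁻¹ * x * (b⁻¹ * (a * g) * b) = b⁻¹ * (g⁻¹ * ((a⁻¹ * b) * x * (a⁻¹ * b)⁻¹) * g) * b := by group
  rw [h3, h2]
  exact Subgroup.mul_mem _ (Subgroup.mul_mem _ (Subgroup.inv_mem _ (le_norm hb)) hy) (le_norm hb)

/-- `C_N(z)` acts freely on `M` -/
theorem C_free (hN : Subgroup.normalizer (M : Set G) ≠ ⊤) {c x : G} (hc : c ∈ Subgroup.normalizer (M : Set G))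
    (hcz : c * z = z * c) (hx : x ∈ M) (hx1 : x ≠ 1) (hcx : c * x = x * c) : c = 1 := by
  obtain ⟨u, hu, huz⟩ := H.exists_HC hN
  by_contra hc1
  have huc := H.inverts_C hu huz hc hcz
  have huu := H.inv_of_comm hu huz
  have hui : u⁻¹ = u := inv_eq_of_mul_eq_one_left huu
  set g := u * x * u⁻¹ with hg
  have hgN : g ∉ Subgroup.normalizer (M : Set G) := by
    have := H.free2 (g := u⁻¹) (fun h => hu (by have := Subgroup.inv_mem _ h; rwa [inv_inv] at this)) hx hx1
    rwa [inv_inv] at this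
  have hcg : c * g * c⁻¹ = g := by
    have h1 : c = u * c⁻¹ * u⁻¹ := by
      have h2 : u * c⁻¹ * u⁻¹ = (u * c * u⁻¹)⁻¹ := by group
      rw [h2, huc, inv_inv]
    have h3 : c⁻¹ * x * c = x := by rw [mul_assoc, ← hcx, inv_mul_cancel_left]
    calc c * g * c⁻¹ = (u * c⁻¹ * u⁻¹) * (u * x * u⁻¹) * (u * c⁻¹ * u⁻¹)⁻¹ := by rw [← h1]
      _ = u * (c⁻¹ * x * c) * u⁻¹ := by group
      _ = g := by rw [h3]
  obtain ⟨a, ha, h⟩ := H.all g hgN
  have hca : c * a * c⁻¹ = a := by
    apply H.uniq hgN (mem_norm hc ha) ha _ h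
    have h2 : c * (a * g) * c⁻¹ = c * a * c⁻¹ * g := by
      calc c * (a * g) * c⁻¹ = c * a * c⁻¹ * (c * g * c⁻¹) := by group
        _ = _ := by rw [hcg]
    rw [← h2]
    calc c * (a * g) * c⁻¹ * (c * (a * g) * c⁻¹) = c * ((a * g) * (a * g)) * c⁻¹ := by group
      _ = 1 := by rw [h]; group
  have hw : a * g ∉ Subgroup.normalizer (M : Set G) := by
    intro h1
    apply hgN
    have := Subgroup.mul_mem _ (Subgroup.inv_mem _ (le_norm ha)) h1
    rwa [inv_mul_cancel_left] at this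
  have hcw : c * (a * g) * c⁻¹ = a * g := by
    calc c * (a * g) * c⁻¹ = (c * a * c⁻¹) * (c * g * c⁻¹) := by group
      _ = _ := by rw [hca, hcg]
  obtain ⟨b, hb, h1⟩ := H.exists_comm hw h
  have hcb : c * b * c⁻¹ = b := by
    apply H.comm_uniq hw h (mem_norm hc hb) hb _ h1
    have h3 : c * z * c⁻¹ = z := by rw [hcz, mul_inv_cancel_right]
    have h4 : c * b * c⁻¹ * z * (c * b * c⁻¹)⁻¹ = c * (b * z * b⁻¹) * c⁻¹ := by
      calc c * b * c⁻¹ * z * (c * b * c⁻¹)⁻¹ = c * b * c⁻¹ * (c * z * c⁻¹) * (c * b * c⁻¹)⁻¹ := by rw [h3]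
        _ = _ := by group
    rw [h4]
    calc a * g * (c * (b * z * b⁻¹) * c⁻¹) = (c * (a * g) * c⁻¹) * (c * (b * z * b⁻¹) * c⁻¹) := by rw [hcw]
      _ = c * ((a * g) * (b * z * b⁻¹)) * c⁻¹ := by group
      _ = c * ((b * z * b⁻¹) * (a * g)) * c⁻¹ := by rw [h1]
      _ = c * (b * z * b⁻¹) * c⁻¹ * (c * (a * g) * c⁻¹) := by group
      _ = _ := by rw [hcw]
  have hv1 : b⁻¹ * (a * g) * b ∉ Subgroup.normalizer (M : Set G) := by
    have := H.conj_out (M.inv_mem hb) hw
    rwa [inv_inv] at this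
  have hv2 : b⁻¹ * (a * g) * b * z = z * (b⁻¹ * (a * g) * b) := by
    calc b⁻¹ * (a * g) * b * z = b⁻¹ * ((a * g) * (b * z * b⁻¹)) * b := by group
      _ = b⁻¹ * ((b * z * b⁻¹) * (a * g)) * b := by rw [h1]
      _ = _ := by group
  have h5 := H.inverts_C hv1 hv2 hc hcz
  have h6 : (b⁻¹ * (a * g) * b) * c * (b⁻¹ * (a * g) * b)⁻¹ = c := by
    rw [mul_inv_eq_iff_eq_mul]
    have e1 : c * b = b * c := mul_inv_eq_iff_eq_mul.1 hcb
    have e2 : c * (a * g) = (a * g) * c := mul_inv_eq_iff_eq_mul.1 hcw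
    have e3 : c * b⁻¹ = b⁻¹ * c := by rw [eq_inv_mul_iff_mul_eq, ← mul_assoc, ← e1, mul_inv_cancel_right]
    calc b⁻¹ * (a * g) * b * c = b⁻¹ * (a * g) * (b * c) := by group
      _ = b⁻¹ * (a * g) * (c * b) := by rw [e1]
      _ = b⁻¹ * ((a * g) * c) * b := by group
      _ = b⁻¹ * (c * (a * g)) * b := by rw [e2]
      _ = (b⁻¹ * c) * (a * g) * b := by group
      _ = (c * b⁻¹) * (a * g) * b := by rw [e3]
      _ = c * (b⁻¹ * (a * g) * b) := by group
  rw [h6] at h5
  have h7 : c * c = 1 := by nth_rewrite 2 [h5]; exact mul_inv_cancel c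
  rcases H.cz hc hcz h7 with h8 | h8
  · exact hc1 h8
  · rw [h8] at hcx
    have h9 := H.z_conj hx
    rw [hcx, mul_inv_cancel_right] at h9
    exact hx1 (H.sq_ne hx (by nth_rewrite 2 [h9]; exact mul_inv_cancel x))

/-- the centraliser of a nonidentity element of `M` is `M` -/
theorem cent_eq (hN : Subgroup.normalizer (M : Set G) ≠ ⊤) {x h : G} (hx : x ∈ M) (hx1 : x ≠ 1) (hh : h * x = x * h) :
    h ∈ M := by
  obtain ⟨a, ha, c, hc, hcz, rfl⟩ := H.fac h (H.cent_mem hx hx1 hh)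
  have h1 : c * x = x * c := by
    have h2 := H.comm a ha x hx
    have h3 : a * (c * x) = a * (x * c) := by
      calc a * (c * x) = (a * c) * x := by group
        _ = x * (a * c) := hh
        _ = (x * a) * c := by group
        _ = (a * x) * c := by rw [h2]
        _ = _ := by group
    exact mul_left_cancel h3
  rw [H.C_free hN hc hcz hx hx1 h1, mul_one]
  exact ha

omit H in
theorem _root_.Cfsg.Agent.BTI.Hyp.card_N (H : Hyp M z) :
    Nat.card (Subgroup.normalizer (M : Set G)) = Nat.card M * Nat.card (CN M z) := by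
  rw [← Nat.card_prod]
  symm
  refine Nat.card_eq_of_bijective (fun x : M × CN M z => (⟨(x.1 : G) * x.2,
    Subgroup.mul_mem _ (le_norm x.1.2) (mem_CN.1 x.2.2).1⟩ : Subgroup.normalizer (M : Set G))) ⟨?_, ?_⟩
  · rintro ⟨a, c⟩ ⟨a', c'⟩ h
    have h0 : (a : G) * c = a' * c' := congrArg Subtype.val h
    have h1 : (a' : G)⁻¹ * a = c' * (c : G)⁻¹ := by
      rw [eq_mul_inv_iff_mul_eq, mul_assoc, h0, inv_mul_cancel_left]
    have h2 : (a' : G)⁻¹ * a = 1 := by
      have hm : (a' : G)⁻¹ * a ∈ M := M.mul_mem (M.inv_mem a'.2) a.2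
      have h3 := H.z_conj hm
      have h4 : z * ((a' : G)⁻¹ * a) * z⁻¹ = (a' : G)⁻¹ * a := by
        have h5 := (mem_CN.1 ((CN M z).mul_mem c'.2 ((CN M z).inv_mem c.2))).2
        rw [h1, ← h5, mul_inv_cancel_right]
      rw [h4] at h3
      exact H.sq_ne hm (by nth_rewrite 2 [h3]; exact mul_inv_cancel _)
    have h3 : a' = a := Subtype.ext (inv_mul_eq_one.1 h2)
    subst h3
    have h4 : c = c' := Subtype.ext (mul_left_cancel h0)
    rw [h4]
  · rintro ⟨n, hn⟩
    obtain ⟨a, ha, c, hc, hcz, rfl⟩ := H.fac n hn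
    exact ⟨(⟨a, ha⟩, ⟨c, mem_CN.2 ⟨hc, hcz⟩⟩), rfl⟩

theorem z_mem_CN : z ∈ CN M z := mem_CN.2 ⟨H.zN, rfl⟩

/-- the linear case -/
theorem caseA (hN : Subgroup.normalizer (M : Set G) ≠ ⊤)
    (hA : ∀ v w : G, v ∉ Subgroup.normalizer (M : Set G) → v * z = z * v → w ∉ Subgroup.normalizer (M : Set G) →
      w * z = z * w → v * w ∈ Subgroup.normalizer (M : Set G)) :
    ∃ (K : Type) (_ : Field K) (_ : Fintype K), Fintype.card K = Nat.card M ∧
      ((Nat.card (CN M z) = Nat.card M - 1 ∧ Nonempty (G ≃* Matrix.ProjGenLinGroup (Fin 2) K)) ∨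
       (2 * Nat.card (CN M z) = Nat.card M - 1 ∧ Nonempty (G ≃* Matrix.ProjectiveSpecialLinearGroup (Fin 2) K))) := by
  obtain ⟨u, hu, huz⟩ := H.exists_HC hN
  have huu := H.inv_of_comm hu huz
  have hui : u⁻¹ = u := inv_eq_of_mul_eq_one_left huu
  have hinvC : ∀ c ∈ CN M z, u * c * u⁻¹ = c⁻¹ := fun c hc => H.inverts_C hu huz (mem_CN.1 hc).1 (mem_CN.1 hc).2
  have hHC : Nat.card (HC M z) = Nat.card (CN M z) := by
    symm
    refine Nat.card_eq_of_bijective (fun c : CN M z => (⟨(c : G) * u, fun h => hu (by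
      have := Subgroup.mul_mem _ (Subgroup.inv_mem _ (mem_CN.1 c.2).1) h
      rwa [inv_mul_cancel_left] at this), by
        rw [mul_assoc, huz, ← mul_assoc, (mem_CN.1 c.2).2, mul_assoc]⟩ : HC M z)) ⟨?_, ?_⟩
    · intro c c' h
      exact Subtype.ext (mul_right_cancel (congrArg Subtype.val h : (c : G) * u = c' * u))
    · rintro ⟨v, hv, hvz⟩
      refine ⟨⟨v * u, mem_CN.2 ⟨hA v u hv hvz hu huz, by rw [mul_assoc, huz, ← mul_assoc, hvz, mul_assoc]⟩⟩, ?_⟩
      apply Subtype.ext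
      show v * u * u = v
      rw [mul_assoc, huu, mul_one]
  have hcN := H.toHyp.card_N
  have h1 := H.card_out
  have h2 := H.card_out'
  have hodd : Odd (Nat.card M) := by
    rw [← Nat.not_even_iff_odd, even_iff_two_dvd]
    intro h
    haveI : Fact (Nat.Prime 2) := ⟨Nat.prime_two⟩
    obtain ⟨y, hy⟩ := exists_prime_orderOf_dvd_card' (G := M) 2 h
    have hyy : (y : G) * y = 1 := by
      have h1 := pow_orderOf_eq_one y
      rw [hy, sq] at h1
      exact congrArg Subtype.val h1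
    have := H.sq_ne y.2 hyy
    have : y = 1 := Subtype.ext this
    rw [this, orderOf_one] at hy
    omega
  have hM2 : 2 ≤ Nat.card M := by
    obtain ⟨x, hx, hx1⟩ := H.ne
    have : Nontrivial M := ⟨⟨⟨x, hx⟩, 1, fun h => hx1 (congrArg Subtype.val h)⟩⟩
    exact Finite.one_lt_card
  have hidx : (Subgroup.normalizer (M : Set G)).index = Nat.card M + 1 := by
    have h3 := Subgroup.card_mul_index (Subgroup.normalizer (M : Set G))
    rw [← h1, h2, hHC, hcN] at h3
    have hpos : 0 < Nat.card M * Nat.card (CN M z) := Nat.mul_pos (by omega) Nat.card_pos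
    apply Nat.eq_of_mul_eq_mul_left hpos
    rw [h3]; ring
  have Q : Quot (Subgroup.normalizer (M : Set G)) M :=
    { le := Subgroup.le_normalizer
      norm := fun b hb x hx => mem_norm hb hx
      free := fun g hg x hx hx1 => H.free2 hg hx hx1
      cent := fun x hx hx1 h _ hh => H.cent_eq hN hx hx1 hh
      idx := hidx
      two := hM2 }
  -- the two point stabiliser
  have hst : stab2 G (base (Subgroup.normalizer (M : Set G))) (u • base (Subgroup.normalizer (M : Set G))) = CN M z := by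
    ext d
    rw [mem_stab2, smul_base, mem_stab_smul]
    constructor
    · rintro ⟨hd1, hd2⟩
      obtain ⟨a, ha, c, hc, hcz, rfl⟩ := H.fac d hd1
      have hcC : c ∈ CN M z := mem_CN.2 ⟨hc, hcz⟩
      have h3 : u⁻¹ * a * u ∈ Subgroup.normalizer (M : Set G) := by
        have h4 : u⁻¹ * (a * c) * u = (u⁻¹ * a * u) * (u * c * u⁻¹) := by
          rw [hui]
          calc u * (a * c) * u = u * a * 1 * c * u := by group
            _ = u * a * (u * u) * c * u := by rw [huu]
            _ = _ := by group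
        have h5 : u⁻¹ * a * u = (u⁻¹ * (a * c) * u) * (u * c * u⁻¹)⁻¹ := by rw [h4]; group
        rw [h5, hinvC c hcC, inv_inv]
        exact Subgroup.mul_mem _ hd2 hc
      have ha1 : a = 1 := by
        by_contra ha1
        exact H.free2 hu ha ha1 h3
      rw [ha1, one_mul]
      exact hcC
    · intro hd
      refine ⟨(mem_CN.1 hd).1, ?_⟩
      have h3 := hinvC d hd
      rw [hui] at h3 ⊢
      rw [h3]
      exact Subgroup.inv_mem _ (mem_CN.1 hd).1
  have hb : u • base (Subgroup.normalizer (M : Set G)) ≠ base (Subgroup.normalizer (M : Set G)) := fun h => hu (smul_base.1 h)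
  obtain ⟨K, i1, i2, h3, h4⟩ := Q.ident H.comm hodd hb H.z1 H.zz (by rw [hst]; exact H.z_mem_CN) (by
    intro s d hs1 hs2 hd
    rw [hst] at hd
    -- `s = u n`
    have e1 : u * s ∈ stab2 G (base (Subgroup.normalizer (M : Set G))) (u • base (Subgroup.normalizer (M : Set G))) := by
      rw [mem_stab2]
      constructor
      · rw [mul_smul, hs1, ← mul_smul, huu, one_smul]
      · rw [mul_smul, hs2]
    rw [hst] at e1
    have e2 : s = u * (u * s) := by rw [← mul_assoc, huu, one_mul]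
    have e3 : (u * s) * d = d * (u * s) := by
      letI := Fintype.ofFinite G
      exact BSW.comm_of_inverts hinvC _ e1 _ hd
    calc s * d * s⁻¹ = u * ((u * s) * d * (u * s)⁻¹) * u⁻¹ := by
          nth_rewrite 1 [e2]; nth_rewrite 2 [e2]; group
      _ = u * d * u⁻¹ := by rw [e3, mul_inv_cancel_right]
      _ = d⁻¹ := hinvC d hd)
  rw [hst] at h4
  exact ⟨K, i1, i2, h3, h4⟩

/-- `M` is elementary abelian when `C_N(z)` is large -/
theorem exp_prime (hN : Subgroup.normalizer (M : Set G) ≠ ⊤) (hC : Nat.card M ≤ 2 * Nat.card (CN M z) + 1)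
    {p : ℕ} [hp : Fact p.Prime] (hpM : p ∣ Nat.card M) (x : G) (hx : x ∈ M) : x ^ p = 1 := by
  let Ω : Subgroup G :=
    { carrier := {x | x ∈ M ∧ x ^ p = 1}
      one_mem' := ⟨M.one_mem, one_pow _⟩
      mul_mem' := by
        rintro a b ⟨ha, ha'⟩ ⟨hb, hb'⟩
        refine ⟨M.mul_mem ha hb, ?_⟩
        rw [(show Commute a b from H.comm a ha b hb).mul_pow, ha', hb', one_mul]
      inv_mem' := by
        rintro a ⟨ha, ha'⟩
        exact ⟨M.inv_mem ha, by rw [inv_pow, ha', inv_one]⟩ }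
  have hΩM : Ω ≤ M := fun a ha => ha.1
  obtain ⟨y, hy⟩ := exists_prime_orderOf_dvd_card' (G := M) p hpM
  have hyp : (y : G) ^ p = 1 := by
    have h1 := pow_orderOf_eq_one y
    rw [hy] at h1
    exact congrArg Subtype.val h1
  have hy1 : (y : G) ≠ 1 := by
    intro h
    have : y = 1 := Subtype.ext h
    rw [this, orderOf_one] at hy
    exact hp.out.one_lt.ne hy
  have h1 : Nat.card (CN M z) + 1 ≤ Nat.card Ω := by
    have h2 : Function.Injective (fun o : Option (CN M z) => (match o with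
        | none => (1 : Ω)
        | some c => ⟨c * (y : G) * (c : G)⁻¹, mem_norm (mem_CN.1 c.2).1 y.2, by
            rw [conj_pow, hyp, mul_one, mul_inv_cancel]⟩ : Ω)) := by
      intro o o' h
      match o, o', h with
      | none, none, _ => rfl
      | none, some c, h =>
        exfalso
        have h3 : (1 : G) = c * (y : G) * (c : G)⁻¹ := congrArg Subtype.val h
        exact hy1 (conj_eq_one_iff.1 h3.symm)
      | some c, none, h =>
        exfalso
        have h3 : c * (y : G) * (c : G)⁻¹ = 1 := congrArg Subtype.val h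
        exact hy1 (conj_eq_one_iff.1 h3)
      | some c, some c', h =>
        have h3 : c * (y : G) * (c : G)⁻¹ = c' * (y : G) * (c' : G)⁻¹ := congrArg Subtype.val h
        have h4 := mem_CN.1 ((CN M z).mul_mem ((CN M z).inv_mem c'.2) c.2)
        have h5 := H.C_free hN h4.1 h4.2 y.2 hy1 (by
          calc (c' : G)⁻¹ * c * y = (c' : G)⁻¹ * (c * y * (c : G)⁻¹) * c := by group
            _ = (c' : G)⁻¹ * (c' * y * (c' : G)⁻¹) * c := by rw [h3]
            _ = _ := by group)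
        rw [Subtype.ext (inv_mul_eq_one.1 h5).symm]
    have h3 := Nat.card_le_card_of_injective _ h2
    rwa [Finite.card_option] at h3
  have h2 : Nat.card Ω ∣ Nat.card M := Subgroup.card_dvd_of_le hΩM
  obtain ⟨k, hk⟩ := h2
  have hMpos : 0 < Nat.card M := Nat.card_pos
  have h3 : k = 1 := by
    by_contra hk1
    have hk0 : k ≠ 0 := by rintro rfl; omega
    have : Nat.card Ω * 2 ≤ Nat.card Ω * k := Nat.mul_le_mul_left _ (by omega)
    omega
  rw [h3, mul_one] at hk
  have h4 : Ω = M := Subgroup.eq_of_le_of_card_ge hΩM hk.le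
  have h5 : x ∈ Ω := by rw [h4]; exact hx
  exact h5.2

end Hyp2

end Cfsg.Agent.BTI
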