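import Cfsg.Agent.BTI.CaseA
import Cfsg.Agent.Frob.Action

set_option autoImplicit false

/-! # Bender's TI theorem: elementary abelian centraliser (helper2) -/

namespace Cfsg.Agent.BTI

open scoped Classical
open Cfsg

universe u

variable {G : Type u} [Group G] [Finite G] {M : Subgroup G} {z : G}

/-- Case B -/
structure HypB (M : Subgroup G) (z : G) : Prop extends Hyp2 M z where
  cn : ∀ c ∈ CN M z, c = 1 ∨ c = z
  big : 8 ≤ Nat.card (Subgroup.centralizer ({z} : Set G))
  nt : Subgroup.normalizer (M : Set G) ≠ ⊤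

theorem mem_Z {c : G} : c ∈ Subgroup.centralizer ({z} : Set G) ↔ c * z = z * c := Subgroup.mem_centralizer_singleton_iff

theorem Hyp2.caseB (H : Hyp2 M z) {v w : G} (hv : v ∉ Subgroup.normalizer (M : Set G)) (hvz : v * z = z * v)
    (hw : w ∉ Subgroup.normalizer (M : Set G)) (hwz : w * z = z * w) (hvw : v * w ∉ Subgroup.normalizer (M : Set G)) :
    HypB M z := by
  have hcn : ∀ c ∈ CN M z, c = 1 ∨ c = z := by
    intro c hc
    obtain ⟨hc1, hc2⟩ := mem_CN.1 hc
    have h1 := H.inverts_C hv hvz hc1 hc2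
    have h2 := H.inverts_C hw hwz hc1 hc2
    have h3 := H.inverts_C hvw (by rw [mul_assoc, hwz, ← mul_assoc, hvz, mul_assoc]) hc1 hc2
    have h4 : v * w * c * (v * w)⁻¹ = v * (w * c * w⁻¹) * v⁻¹ := by group
    have h5 : v * c⁻¹ * v⁻¹ = (v * c * v⁻¹)⁻¹ := by group
    rw [h4, h2, h5, h1, inv_inv] at h3
    exact H.cz hc1 hc2 (by nth_rewrite 2 [h3]; exact mul_inv_cancel c)
  have hsq : ∀ g : G, g * z = z * g → g * g = 1 := by
    intro g hg
    by_cases hgN : g ∈ Subgroup.normalizer (M : Set G)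
    · rcases hcn g (mem_CN.2 ⟨hgN, hg⟩) with rfl | rfl
      · exact one_mul 1
      · exact H.zz
    · exact H.inv_of_comm hgN hg
  refine ⟨H, hcn, ?_, fun h => hv (h ▸ Subgroup.mem_top v)⟩
  -- the order is a power of two
  have h2 : IsPGroup 2 (Subgroup.centralizer ({z} : Set G)) := by
    intro g
    exact ⟨1, Subtype.ext (by
      have := hsq g (mem_Z.1 g.2)
      rw [pow_one, Subgroup.coe_pow, sq, this]; rfl)⟩
  haveI : Fact (Nat.Prime 2) := ⟨Nat.prime_two⟩
  obtain ⟨k, hk⟩ := IsPGroup.iff_card.1 h2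
  have h5 : 5 ≤ Nat.card (Subgroup.centralizer ({z} : Set G)) := by
    let S : Finset G := {1, z, v, w, v * w}
    have hv1 : v ≠ 1 := out_ne_one hv
    have hw1 : w ≠ 1 := out_ne_one hw
    have hvw1 : v * w ≠ 1 := out_ne_one hvw
    have hvz' : z ≠ v := fun h => hv (h ▸ H.zN)
    have hwz' : z ≠ w := fun h => hw (h ▸ H.zN)
    have hvwz' : z ≠ v * w := fun h => hvw (h ▸ H.zN)
    have h1 : v ≠ w := by
      intro h
      apply hvw1
      rw [← h]; exact hsq v hvz
    have h2 : v ≠ v * w := fun h => hw1 (by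
      have := h.symm
      rwa [mul_eq_left] at this)
    have h3 : w ≠ v * w := fun h => hv1 (by
      have := h.symm
      rwa [mul_eq_right] at this)
    have hS : S.card = 5 := by
      have e1 : (1 : G) ∉ ({z, v, w, v * w} : Finset G) := by
        simp only [Finset.mem_insert, Finset.mem_singleton, not_or]
        exact ⟨H.z1.symm, hv1.symm, hw1.symm, hvw1.symm⟩
      have e2 : z ∉ ({v, w, v * w} : Finset G) := by
        simp only [Finset.mem_insert, Finset.mem_singleton, not_or]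
        exact ⟨hvz', hwz', hvwz'⟩
      have e3 : v ∉ ({w, v * w} : Finset G) := by
        simp only [Finset.mem_insert, Finset.mem_singleton, not_or]
        exact ⟨h1, h2⟩
      have e4 : w ∉ ({v * w} : Finset G) := by
        simp only [Finset.mem_singleton]
        exact h3
      show ({1, z, v, w, v * w} : Finset G).card = 5
      rw [Finset.card_insert_of_notMem e1, Finset.card_insert_of_notMem e2, Finset.card_insert_of_notMem e3,
        Finset.card_insert_of_notMem e4, Finset.card_singleton]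
    letI := Fintype.ofFinite G
    have hsub : S ⊆ Finset.univ.filter (fun g : G => g ∈ Subgroup.centralizer ({z} : Set G)) := by
      intro g hg
      simp only [Finset.mem_filter, Finset.mem_univ, true_and, mem_Z]
      simp only [S, Finset.mem_insert, Finset.mem_singleton] at hg
      rcases hg with rfl | rfl | rfl | rfl | rfl
      · rw [one_mul, mul_one]
      · rfl
      · exact hvz
      · exact hwz
      · rw [mul_assoc, hwz, ← mul_assoc, hvz, mul_assoc]
    have h6 := Finset.card_le_card hsub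
    rw [hS] at h6
    rwa [Nat.card_eq_fintype_card, Fintype.card_subtype]
  rw [hk] at h5 ⊢
  have hk3 : 3 ≤ k := by
    by_contra hcon
    have : k ≤ 2 := by omega
    have : 2 ^ k ≤ 2 ^ 2 := Nat.pow_le_pow_right (by norm_num) this
    omega
  calc 8 = 2 ^ 3 := rfl
    _ ≤ 2 ^ k := Nat.pow_le_pow_right (by norm_num) hk3

namespace HypB

variable (H : HypB M z)
include H

theorem sq_of_comm {g : G} (hg : g * z = z * g) : g * g = 1 := by
  by_cases hgN : g ∈ Subgroup.normalizer (M : Set G)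
  · rcases H.cn g (mem_CN.2 ⟨hgN, hg⟩) with rfl | rfl
    · exact one_mul 1
    · exact H.zz
  · exact H.inv_of_comm hgN hg

theorem Zcomm : ∀ a ∈ Subgroup.centralizer ({z} : Set G), ∀ b ∈ Subgroup.centralizer ({z} : Set G), a * b = b * a := by
  intro a ha b hb
  have h1 := H.sq_of_comm (mem_Z.1 ha)
  have h2 := H.sq_of_comm (mem_Z.1 hb)
  have h3 := H.sq_of_comm (mem_Z.1 (Subgroup.mul_mem _ ha hb))
  have e1 : a⁻¹ = a := inv_eq_of_mul_eq_one_left h1
  have e2 : b⁻¹ = b := inv_eq_of_mul_eq_one_left h2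
  have e3 : (a * b)⁻¹ = a * b := inv_eq_of_mul_eq_one_left h3
  rw [mul_inv_rev, e1, e2] at e3
  exact e3.symm

theorem Z_pgroup : IsPGroup 2 (Subgroup.centralizer ({z} : Set G)) := by
  intro g
  exact ⟨1, Subtype.ext (by
      have := H.sq_of_comm (mem_Z.1 g.2)
      rw [pow_one, Subgroup.coe_pow, sq, this]; rfl)⟩

theorem exists_card : ∃ k : ℕ, 2 ≤ k ∧ Nat.card (Subgroup.centralizer ({z} : Set G)) = 2 * 2 ^ k := by
  haveI : Fact (Nat.Prime 2) := ⟨Nat.prime_two⟩
  obtain ⟨k, hk⟩ := IsPGroup.iff_card.1 H.Z_pgroup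
  have h1 := H.big
  rw [hk] at h1
  have hk3 : 3 ≤ k := by
    by_contra hcon
    have : k ≤ 2 := by omega
    have : 2 ^ k ≤ 2 ^ 2 := Nat.pow_le_pow_right (by norm_num) this
    omega
  refine ⟨k - 1, by omega, ?_⟩
  rw [hk, ← pow_succ']
  congr 1; omega

theorem card_CN : Nat.card (CN M z) = 2 := by
  rw [Nat.card_eq_two_iff]
  refine ⟨1, ⟨z, H.z_mem_CN⟩, fun h => H.z1 (congrArg Subtype.val h).symm, ?_⟩
  ext c
  simp only [Set.mem_insert_iff, Set.mem_singleton_iff, Set.mem_univ, iff_true]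
  rcases H.cn c c.2 with h | h
  · left; exact Subtype.ext h
  · right; exact Subtype.ext h

theorem card_N : Nat.card (Subgroup.normalizer (M : Set G)) = 2 * Nat.card M := by
  rw [H.toHyp2.toHyp.card_N, H.card_CN, mul_comm]

theorem card_Z : Nat.card (Subgroup.centralizer ({z} : Set G)) = Nat.card (HC M z) + 2 := by
  rw [← H.card_CN, ← Nat.card_sum]
  refine (Nat.card_eq_of_bijective (fun x : HC M z ⊕ CN M z => (match x with
    | Sum.inl v => (⟨v, mem_Z.2 v.2.2⟩ : Subgroup.centralizer ({z} : Set G))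
    | Sum.inr c => ⟨c, mem_Z.2 (mem_CN.1 c.2).2⟩ : Subgroup.centralizer ({z} : Set G))) ⟨?_, ?_⟩).symm
  · intro x y h
    match x, y, h with
    | Sum.inl v, Sum.inl w, h =>
      have h1 : (v : G) = w := congrArg (fun t : Subgroup.centralizer ({z} : Set G) => (t : G)) h
      exact congrArg Sum.inl (Subtype.ext h1)
    | Sum.inl v, Sum.inr c, h =>
      exfalso
      have h1 : (v : G) = c := congrArg (fun t : Subgroup.centralizer ({z} : Set G) => (t : G)) h
      exact v.2.1 (h1 ▸ (mem_CN.1 c.2).1)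
    | Sum.inr c, Sum.inl v, h =>
      exfalso
      have h1 : (c : G) = v := congrArg (fun t : Subgroup.centralizer ({z} : Set G) => (t : G)) h
      exact v.2.1 (h1 ▸ (mem_CN.1 c.2).1)
    | Sum.inr c, Sum.inr c', h =>
      have h1 : (c : G) = c' := congrArg (fun t : Subgroup.centralizer ({z} : Set G) => (t : G)) h
      exact congrArg Sum.inr (Subtype.ext h1)
  · rintro ⟨g, hg⟩
    by_cases hgN : g ∈ Subgroup.normalizer (M : Set G)
    · exact ⟨Sum.inr ⟨g, mem_CN.2 ⟨hgN, mem_Z.1 hg⟩⟩, rfl⟩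
    · exact ⟨Sum.inl ⟨g, hgN, mem_Z.1 hg⟩, rfl⟩

theorem card_G : Nat.card G = Nat.card M * (Nat.card M * Nat.card (HC M z) + 2) := by
  rw [← H.card_out, H.card_out', H.card_N]; ring

theorem odd_M : Odd (Nat.card M) := by
  rw [← Nat.not_even_iff_odd, even_iff_two_dvd]
  intro h
  haveI : Fact (Nat.Prime 2) := ⟨Nat.prime_two⟩
  obtain ⟨y, hy⟩ := exists_prime_orderOf_dvd_card' (G := M) 2 h
  have hyy : (y : G) * y = 1 := by
    have h1 := pow_orderOf_eq_one y
    rw [hy, sq] at h1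
    exact congrArg Subtype.val h1
  have := H.sq_ne y.2 hyy
  have : y = 1 := Subtype.ext this
  rw [this, orderOf_one] at hy
  omega

theorem two_le_M : 2 ≤ Nat.card M := by
  obtain ⟨x, hx, hx1⟩ := H.ne
  have : Nontrivial M := ⟨⟨⟨x, hx⟩, 1, fun h => hx1 (congrArg Subtype.val h)⟩⟩
  exact Finite.one_lt_card

omit H in
theorem _root_.Cfsg.Agent.BTI.isConj_inv {x : G} (hzz : z * z = 1) (hz1 : z ≠ 1) (h : IsConj z x) : x ≠ 1 ∧ x * x = 1 := by
  obtain ⟨g, hg⟩ := isConj_iff.1 h
  constructor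
  · rintro rfl
    exact hz1 (conj_eq_one_iff.1 hg)
  · rw [← hg]
    calc g * z * g⁻¹ * (g * z * g⁻¹) = g * (z * z) * g⁻¹ := by group
      _ = 1 := by rw [hzz]; group

theorem card_class : Nat.card {x : G // IsConj z x} * (Nat.card (HC M z) + 2) =
    Nat.card M * (Nat.card M * Nat.card (HC M z) + 2) := by
  rw [← H.card_Z, ← H.card_G]
  exact CharBase.card_isConj_mul_card_centralizer z

/-- involutions -/
theorem card_inv : Nat.card {x : G // x ≠ 1 ∧ x * x = 1} = Nat.card M * Nat.card (HC M z) + Nat.card M := by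
  rw [← H.card_out', ← Nat.card_sum]
  refine (Nat.card_eq_of_bijective (fun x : Out M ⊕ M => (match x with
    | Sum.inl v => (⟨v, out_ne_one v.2.1, v.2.2⟩ : {x : G // x ≠ 1 ∧ x * x = 1})
    | Sum.inr a => ⟨(a : G) * z, (H.Mz a.2).2⟩ : {x : G // x ≠ 1 ∧ x * x = 1})) ⟨?_, ?_⟩).symm
  · intro x y h
    match x, y, h with
    | Sum.inl v, Sum.inl w, h =>
      have h1 : (v : G) = w := congrArg (fun t : {x : G // x ≠ 1 ∧ x * x = 1} => (t : G)) h
      exact congrArg Sum.inl (Subtype.ext h1)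
    | Sum.inl v, Sum.inr c, h =>
      exfalso
      have h1 : (v : G) = c * z := congrArg (fun t : {x : G // x ≠ 1 ∧ x * x = 1} => (t : G)) h
      exact v.2.1 (h1 ▸ (H.Mz c.2).1)
    | Sum.inr c, Sum.inl v, h =>
      exfalso
      have h1 : (c : G) * z = v := congrArg (fun t : {x : G // x ≠ 1 ∧ x * x = 1} => (t : G)) h
      exact v.2.1 (h1 ▸ (H.Mz c.2).1)
    | Sum.inr c, Sum.inr c', h =>
      have h1 : (c : G) * z = c' * z := congrArg (fun t : {x : G // x ≠ 1 ∧ x * x = 1} => (t : G)) h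
      exact congrArg Sum.inr (Subtype.ext (mul_right_cancel h1))
  · rintro ⟨g, hg1, hgg⟩
    by_cases hgN : g ∈ Subgroup.normalizer (M : Set G)
    · obtain ⟨a, ha, rfl⟩ := H.invN hgN hg1 hgg
      exact ⟨Sum.inr ⟨a, ha⟩, rfl⟩
    · exact ⟨Sum.inl ⟨g, hgN, hgg⟩, rfl⟩

theorem class_le : Nat.card {x : G // IsConj z x} ≤ Nat.card {x : G // x ≠ 1 ∧ x * x = 1} :=
  Nat.card_le_card_of_injective (fun x : {x : G // IsConj z x} => (⟨x, isConj_inv H.zz H.z1 x.2⟩ : {x : G // x ≠ 1 ∧ x * x = 1}))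
    (fun x y h => by
      have h1 : (x : G) = y := congrArg (fun t : {x : G // x ≠ 1 ∧ x * x = 1} => (t : G)) h
      exact Subtype.ext h1)

/-- the two possibilities -/
theorem dichotomy {k : ℕ} (hk : Nat.card (Subgroup.centralizer ({z} : Set G)) = 2 * 2 ^ k) :
    Nat.card M = 2 * 2 ^ k + 1 ∨ Nat.card M = 2 ^ k + 1 := by
  have h1 := H.card_Z
  have h2 := H.card_class
  have h3 := H.class_le
  rw [H.card_inv] at h3
  set m := Nat.card M with hm
  set r := Nat.card (HC M z) with hr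
  set c := Nat.card {x : G // IsConj z x} with hc
  have hm2 : 2 ≤ m := H.two_le_M
  have hbig := H.big
  rw [hk] at h1 hbig
  obtain ⟨r', hr'⟩ : ∃ r', r = r' + 1 := ⟨r - 1, by omega⟩
  -- bound
  have h4 : m ≤ r + 3 := by
    have h5 : m * (m * r + 2) ≤ m * (r + 1) * (r + 2) := by
      rw [← h2]
      exact Nat.mul_le_mul_right _ (by rw [mul_add, mul_one]; exact h3)
    have h6 : m * r + 2 ≤ (r + 1) * (r + 2) := by
      rw [mul_assoc] at h5
      exact Nat.le_of_mul_le_mul_left h5 (by omega)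
    have h7 : m * r ≤ (r + 3) * r := by nlinarith
    exact Nat.le_of_mul_le_mul_right h7 (by omega)
  -- divisibility
  have hcop : Nat.Coprime (r + 2) m := by
    rw [← h1, ← pow_succ']
    exact Nat.Coprime.pow_left _ ((Nat.coprime_two_left).2 H.odd_M)
  have h5 : (r + 2) ∣ m * r + 2 := by
    apply hcop.dvd_of_dvd_mul_left
    exact ⟨c, by rw [← h2, mul_comm]⟩
  have h6 : (r + 2) ∣ 2 * (m - 1) := by
    have h7 : m * r + 2 + 2 * (m - 1) = m * (r + 2) := by
      obtain ⟨m', hm'⟩ : ∃ m', m = m' + 1 := ⟨m - 1, by omega⟩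
      rw [hm', Nat.add_sub_cancel]; ring
    exact (Nat.dvd_add_right h5).1 (h7 ▸ Dvd.intro_left m rfl)
  rw [← h1] at h6
  have h7 : 2 ^ k ∣ m - 1 := Nat.dvd_of_mul_dvd_mul_left (by norm_num) h6
  obtain ⟨j, hj⟩ := h7
  have hj0 : j ≠ 0 := by rintro rfl; omega
  have hj2 : j ≤ 2 := by
    by_contra hcon
    have : 2 ^ k * 3 ≤ 2 ^ k * j := Nat.mul_le_mul_left _ (by omega)
    omega
  interval_cases j
  · exact absurd rfl hj0
  · right; omega
  · left; omega

theorem centralizer_conj {g : G} : Nat.card (Subgroup.centralizer ({g * z * g⁻¹} : Set G)) =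
    Nat.card (Subgroup.centralizer ({z} : Set G)) := by
  symm
  refine Nat.card_eq_of_bijective (fun c : Subgroup.centralizer ({z} : Set G) =>
    (⟨g * c * g⁻¹, by
      rw [Subgroup.mem_centralizer_singleton_iff]
      calc g * c * g⁻¹ * (g * z * g⁻¹) = g * (c * z) * g⁻¹ := by group
        _ = g * (z * c) * g⁻¹ := by rw [mem_Z.1 c.2]
        _ = _ := by group⟩ : Subgroup.centralizer ({g * z * g⁻¹} : Set G))) ⟨?_, ?_⟩
  · intro c c' h
    have h1 : g * c * g⁻¹ = g * c' * g⁻¹ := congrArg Subtype.val h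
    exact Subtype.ext (mul_left_cancel (mul_right_cancel h1))
  · rintro ⟨c, hc⟩
    rw [Subgroup.mem_centralizer_singleton_iff] at hc
    refine ⟨⟨g⁻¹ * c * g, mem_Z.2 ?_⟩, ?_⟩
    · calc g⁻¹ * c * g * z = g⁻¹ * (c * (g * z * g⁻¹)) * g := by group
        _ = g⁻¹ * ((g * z * g⁻¹) * c) * g := by rw [hc]
        _ = _ := by group
    · apply Subtype.ext
      show g * (g⁻¹ * c * g) * g⁻¹ = c
      group

/-- a conjugate of `z` commuting with `z` has the same centraliser -/
theorem cent_eq_of_comm {x : G} (hx : IsConj z x) (hxz : x * z = z * x) :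
    Subgroup.centralizer ({x} : Set G) = Subgroup.centralizer ({z} : Set G) := by
  obtain ⟨g, rfl⟩ := isConj_iff.1 hx
  symm
  apply Subgroup.eq_of_le_of_card_ge
  · intro c hc
    rw [Subgroup.mem_centralizer_singleton_iff]
    exact H.Zcomm c hc _ (mem_Z.2 hxz)
  · rw [H.centralizer_conj]

omit H [Finite G] in
theorem _root_.Cfsg.Agent.BTI.conj_centralizer {g c x : G} (hc : c ∈ Subgroup.centralizer ({x} : Set G)) :
    g * c * g⁻¹ ∈ Subgroup.centralizer ({g * x * g⁻¹} : Set G) := by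
  rw [Subgroup.mem_centralizer_singleton_iff] at hc ⊢
  calc g * c * g⁻¹ * (g * x * g⁻¹) = g * (c * x) * g⁻¹ := by group
    _ = g * (x * c) * g⁻¹ := by rw [hc]
    _ = _ := by group

/-- conjugating elements normalise `C(z)` -/
theorem norm_of_comm {g : G} (h : (g * z * g⁻¹) * z = z * (g * z * g⁻¹)) :
    g ∈ Subgroup.normalizer ((Subgroup.centralizer ({z} : Set G) : Subgroup G) : Set G) := by
  have h1 := H.cent_eq_of_comm (isConj_iff.2 ⟨g, rfl⟩) h
  rw [Subgroup.mem_normalizer_iff]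
  intro c
  constructor
  · intro hc
    rw [← h1]
    exact conj_centralizer hc
  · intro hc
    rw [← h1] at hc
    have h2 := conj_centralizer (g := g⁻¹) hc
    have e1 : g⁻¹ * (g * c * g⁻¹) * g⁻¹⁻¹ = c := by group
    have e2 : g⁻¹ * (g * z * g⁻¹) * g⁻¹⁻¹ = z := by group
    rwa [e1, e2] at h2

end HypB

end Cfsg.Agent.BTI
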