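import Cfsg.Agent.BTI.CaseB
import Cfsg.Agent.BTI.SLCyc
import Cfsg.Agent.S1230

set_option autoImplicit false

/-! # Bender's TI theorem: the `PSL(2, 2^e)` case (helper2) -/

namespace Cfsg.Agent.BTI

open scoped Classical
open Cfsg

universe u

variable {G : Type u} [Group G] [Finite G] {M : Subgroup G} {z : G}

namespace HypB

variable (H : HypB M z)
include H

theorem caseB1 {k : ℕ} (hk2 : 2 ≤ k) (hk : Nat.card (Subgroup.centralizer ({z} : Set G)) = 2 * 2 ^ k)
    (hm : Nat.card M = 2 * 2 ^ k + 1) :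
    (∃ (F : Type) (_ : Field F) (_ : Fintype F) (e : ℕ), 1 < e ∧ Fintype.card F = 2 ^ e ∧ IsCyclic ↥M ∧ Nat.card M = 2 ^ e + 1 ∧
        Nonempty (G ≃* Matrix.ProjectiveSpecialLinearGroup (Fin 2) F)) := by
  haveI : Fact (Nat.Prime 2) := ⟨Nat.prime_two⟩
  have h1 := H.card_Z
  have h2 := H.card_class
  have h3 := H.class_le
  have hG := H.card_G
  have hinv := H.card_inv
  set q := 2 ^ k with hq
  have hq4 : 4 ≤ q := by
    calc 4 = 2 ^ 2 := rfl
      _ ≤ 2 ^ k := Nat.pow_le_pow_right (by norm_num) hk2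
  obtain ⟨t, ht⟩ : ∃ t, q = t + 1 := ⟨q - 1, by omega⟩
  have hr : Nat.card (HC M z) = 2 * t := by omega
  rw [hr, hm] at h2 hG hinv
  have hcl : Nat.card {x : G // IsConj z x} = (2 * q + 1) * (2 * t + 1) := by
    have h4 : (2 * q + 1) * ((2 * q + 1) * (2 * t) + 2) = (2 * q + 1) * (2 * t + 1) * (2 * t + 2) := by
      rw [ht]; ring
    rw [h4] at h2
    exact Nat.eq_of_mul_eq_mul_right (by omega) h2
  have hall : ∀ x : G, x ≠ 1 → x * x = 1 → IsConj z x := by
    have h4 : Function.Bijective (fun x : {x : G // IsConj z x} => (⟨x, isConj_inv H.zz H.z1 x.2⟩ : {x : G // x ≠ 1 ∧ x * x = 1})) := by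
      rw [Nat.bijective_iff_injective_and_card]
      refine ⟨fun x y h => ?_, ?_⟩
      · have h1 := congrArg (fun t : {x : G // x ≠ 1 ∧ x * x = 1} => (t : G)) h
        exact Subtype.ext h1
      · rw [hcl, hinv]; ring
    intro x hx1 hxx
    obtain ⟨y, hy⟩ := h4.2 ⟨x, hx1, hxx⟩
    have h5 : (y : G) = x := congrArg (fun t : {x : G // x ≠ 1 ∧ x * x = 1} => (t : G)) hy
    rw [← h5]; exact y.2
  -- Sylow subgroup
  obtain ⟨T, hT⟩ := H.Z_pgroup.exists_le_sylow
  have hGq : Nat.card G = 2 ^ (k + 1) * ((2 * q + 1) * (2 * t + 1)) := by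
    rw [hG, pow_succ', ← hq, ht]; ring
  have hTcard : Nat.card T = 2 * q := by
    rw [T.card_eq_multiplicity]
    have h5 : (Nat.card G).factorization 2 = k + 1 := by
      rw [hGq, Nat.factorization_mul (by positivity) (by positivity), Nat.prime_two.factorization_pow,
        Finsupp.add_apply, Finsupp.single_eq_same, Nat.factorization_eq_zero_of_not_dvd, add_zero]
      intro hdvd
      have h6 : Odd ((2 * q + 1) * (2 * t + 1)) := Odd.mul ⟨q, rfl⟩ ⟨t, rfl⟩
      exact (Nat.not_even_iff_odd.2 h6) (even_iff_two_dvd.2 hdvd)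
    rw [h5, pow_succ']
  have hTZ : Subgroup.centralizer ({z} : Set G) = (T : Subgroup G) :=
    Subgroup.eq_of_le_of_card_ge hT (by rw [hk, hTcard])
  have hC : ∀ t : G, orderOf t = 2 → IsMulCommutative (Subgroup.centralizer ({t} : Set G)) ∧
      ∀ c ∈ Subgroup.centralizer ({t} : Set G), c ^ 2 = 1 := by
    intro x hx
    have hxx : x * x = 1 := by
      have h1 := pow_orderOf_eq_one x
      rw [hx, sq] at h1
      exact h1
    have hx1 : x ≠ 1 := by
      rintro rfl
      rw [orderOf_one] at hx; omega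
    obtain ⟨g, hg⟩ := isConj_iff.1 (hall x hx1 hxx)
    have key : ∀ c ∈ Subgroup.centralizer ({x} : Set G), g⁻¹ * c * g ∈ Subgroup.centralizer ({z} : Set G) := by
      intro c hc
      have h1 := conj_centralizer (g := g⁻¹) hc
      rw [← hg] at h1
      have e1 : g⁻¹ * c * g⁻¹⁻¹ = g⁻¹ * c * g := by group
      have e2 : g⁻¹ * (g * z * g⁻¹) * g⁻¹⁻¹ = z := by group
      rwa [e1, e2] at h1
    refine ⟨⟨⟨fun a b => ?_⟩⟩, fun c hc => ?_⟩
    · apply Subtype.ext
      show (a : G) * b = b * a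
      have h1 := H.Zcomm _ (key a a.2) _ (key b b.2)
      calc (a : G) * b = g * ((g⁻¹ * a * g) * (g⁻¹ * b * g)) * g⁻¹ := by group
        _ = g * ((g⁻¹ * b * g) * (g⁻¹ * a * g)) * g⁻¹ := by rw [h1]
        _ = _ := by group
    · have h1 := H.sq_of_comm (mem_Z.1 (key c hc))
      rw [sq]
      calc c * c = g * ((g⁻¹ * c * g) * (g⁻¹ * c * g)) * g⁻¹ := by group
        _ = 1 := by rw [h1]; group
  have hnc : ¬ IsCyclic (T : Subgroup G) := by
    intro hcyc
    obtain ⟨g, hg⟩ := hcyc.exists_generator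
    have h5 : orderOf g = Nat.card T := orderOf_eq_card_of_forall_mem_zpowers hg
    have h6 : g ^ 2 = 1 := by
      apply Subtype.ext
      have h7 : (g : G) ∈ Subgroup.centralizer ({z} : Set G) := by rw [hTZ]; exact g.2
      have := H.sq_of_comm (mem_Z.1 h7)
      show (g : G) ^ 2 = 1
      rw [sq]; exact this
    have h7 := orderOf_dvd_of_pow_eq_one h6
    rw [h5, hTcard] at h7
    have := Nat.le_of_dvd (by norm_num) h7
    omega
  have hnn : ¬ (T : Subgroup G).Normal := by
    intro hn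
    have h5 : Nat.card {x : G // IsConj z x} ≤ Nat.card T := by
      refine Nat.card_le_card_of_injective (fun x : {x : G // IsConj z x} => (⟨x, by
        obtain ⟨g, hg⟩ := isConj_iff.1 x.2
        rw [← hg]
        apply hn.conj_mem
        rw [← hTZ]
        exact mem_Z.2 rfl⟩ : T)) ?_
      intro x y h
      exact Subtype.ext (congrArg (fun t : T => (t : G)) h)
    rw [hcl, hTcard] at h5
    nlinarith
  obtain ⟨F, i1, i2, hF, ⟨e⟩⟩ := Cfsg.Agent.S1230.result T hnc hnn hC
  have hF2 : Fintype.card F = 2 ^ (k + 1) := by rw [hF, hTcard, pow_succ']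
  refine ⟨F, i1, i2, k + 1, by omega, hF2, ?_, by rw [hm, pow_succ'], ⟨e⟩⟩
  haveI : CharP F 2 := by
    obtain ⟨p, hp⟩ := CharP.exists F
    haveI := hp
    obtain ⟨n, hpp, hn⟩ := FiniteField.card F p
    have h5 : p = 2 := by
      have h6 : p ∣ 2 ^ (k + 1) := by
        rw [← hF2, hn]
        exact dvd_pow_self p (PNat.ne_zero n)
      exact (Nat.prime_dvd_prime_iff_eq hpp Nat.prime_two).1 (hpp.dvd_of_dvd_pow h6)
    rw [← h5]; exact hp
  letI : CommGroup M := { (inferInstance : Group M) with mul_comm := fun a b => Subtype.ext (H.comm a a.2 b b.2) }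
  exact isCyclic_of_PSL2 (e.toMonoidHom.comp M.subtype) (e.injective.comp M.subtype_injective)
    (fun a ha => Subtype.ext (H.sq_ne a.2 (congrArg (fun t : M => (t : G)) ha)))

end HypB

end Cfsg.Agent.BTI
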