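import Cfsg.Agent.BTI.CaseB
import Cfsg.Agent.MaxClass.Pres

set_option autoImplicit false

/-! # Bender's TI theorem: the normal elementary abelian case (helper2) -/

namespace Cfsg.Agent.BTI

open scoped Classical
open Cfsg

universe u

variable {G : Type u} [Group G] [Finite G] {M : Subgroup G} {z : G}

namespace HypB

variable (H : HypB M z)
include H

/-- numerical facts in the second case -/
theorem nums {k : ℕ} (hk2 : 2 ≤ k) (hk : Nat.card (Subgroup.centralizer ({z} : Set G)) = 2 * 2 ^ k)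
    (hm : Nat.card M = 2 ^ k + 1) :
    Nat.card (HC M z) + 2 = 2 * 2 ^ k ∧ Nat.card G = 2 * 2 ^ (2 * k) * (2 ^ k + 1) ∧
      Nat.card {x : G // IsConj z x} = 2 ^ k * (2 ^ k + 1) ∧
      Nat.card {x : G // x ≠ 1 ∧ x * x = 1} + 1 = 2 ^ k * (2 ^ k + 1) + 2 ^ (2 * k) := by
  have h1 := H.card_Z
  have h2 := H.card_class
  have hG := H.card_G
  have hinv := H.card_inv
  have hpow : (2 : ℕ) ^ (2 * k) = 2 ^ k * 2 ^ k := by rw [two_mul, pow_add]
  rw [hpow]
  set q := 2 ^ k with hq
  have hq4 : 4 ≤ q := by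
    calc 4 = 2 ^ 2 := rfl
      _ ≤ 2 ^ k := Nat.pow_le_pow_right (by norm_num) hk2
  obtain ⟨t, ht⟩ : ∃ t, q = t + 1 := ⟨q - 1, by omega⟩
  have hr : Nat.card (HC M z) = 2 * t := by omega
  rw [hr, hm] at h2 hG hinv
  refine ⟨by omega, ?_, ?_, ?_⟩
  · rw [hG, ht]; ring
  · have h4 : (q + 1) * ((q + 1) * (2 * t) + 2) = q * (q + 1) * (2 * t + 2) := by
      rw [ht]; ring
    rw [h4] at h2
    exact Nat.eq_of_mul_eq_mul_right (by omega) h2
  · rw [hinv, ht]; ring

/-- number of conjugates of `z` commuting with `z` -/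
theorem card_VZ {k : ℕ} (hk2 : 2 ≤ k) (hk : Nat.card (Subgroup.centralizer ({z} : Set G)) = 2 * 2 ^ k)
    (hm : Nat.card M = 2 ^ k + 1) : Nat.card {x : G // IsConj z x ∧ x * z = z * x} = 2 ^ k := by
  obtain ⟨h1, h2, h3, h4⟩ := H.nums hk2 hk hm
  -- conjugates outside `N`
  have e1 : Nat.card {x : G // IsConj z x} = Nat.card M * Nat.card {v : G // (v ∉ Subgroup.normalizer (M : Set G) ∧ v * z = z * v) ∧ IsConj z v} + Nat.card M := by
    rw [← Nat.card_prod, ← Nat.card_sum]
    refine (Nat.card_eq_of_bijective (fun x : (M × {v : G // (v ∉ Subgroup.normalizer (M : Set G) ∧ v * z = z * v) ∧ IsConj z v}) ⊕ M => (match x with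
      | Sum.inl (b, v) => (⟨(b : G) * v * (b : G)⁻¹, v.2.2.trans (isConj_iff.2 ⟨b, rfl⟩)⟩ : {x : G // IsConj z x})
      | Sum.inr b => ⟨(b : G) * z * (b : G)⁻¹, isConj_iff.2 ⟨b, rfl⟩⟩ : {x : G // IsConj z x})) ⟨?_, ?_⟩).symm
    · have hcm : ∀ (b : M) (v : {v : G // (v ∉ Subgroup.normalizer (M : Set G) ∧ v * z = z * v) ∧ IsConj z v}),
          ((b : G) * v * (b : G)⁻¹) * (b * z * (b : G)⁻¹) = (b * z * (b : G)⁻¹) * ((b : G) * v * (b : G)⁻¹) := by
        intro b v
        calc ((b : G) * v * (b : G)⁻¹) * (b * z * (b : G)⁻¹) = b * (v * z) * (b : G)⁻¹ := by group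
          _ = b * (z * v) * (b : G)⁻¹ := by rw [v.2.1.2]
          _ = _ := by group
      intro x y h
      match x, y, h with
      | Sum.inl (b, v), Sum.inl (b', v'), h =>
        have h0 : (b : G) * v * (b : G)⁻¹ = b' * v' * (b' : G)⁻¹ := congrArg (fun t : {x : G // IsConj z x} => (t : G)) h
        have h1 := hcm b v
        have h2 := hcm b' v'
        rw [← h0] at h2
        have h3 := H.comm_uniq (H.conj_out b.2 v.2.1.1) (by
          have := H.inv_of_comm v.2.1.1 v.2.1.2
          calc (b : G) * v * (b : G)⁻¹ * ((b : G) * v * (b : G)⁻¹) = b * ((v : G) * v) * (b : G)⁻¹ := by group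
            _ = 1 := by rw [this]; group) b.2 b'.2 h1 h2
        have h4 : b = b' := Subtype.ext h3
        subst h4
        have h5 : (v : G) = v' := mul_left_cancel (mul_right_cancel h0)
        rw [Subtype.ext h5]
      | Sum.inl (b, v), Sum.inr c, h =>
        exfalso
        have h0 : (b : G) * v * (b : G)⁻¹ = c * z * (c : G)⁻¹ := congrArg (fun t : {x : G // IsConj z x} => (t : G)) h
        apply H.conj_out b.2 v.2.1.1
        rw [h0]
        exact Subgroup.mul_mem _ (Subgroup.mul_mem _ (le_norm c.2) H.zN) (Subgroup.inv_mem _ (le_norm c.2))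
      | Sum.inr c, Sum.inl (b, v), h =>
        exfalso
        have h0 : c * z * (c : G)⁻¹ = (b : G) * v * (b : G)⁻¹ := congrArg (fun t : {x : G // IsConj z x} => (t : G)) h
        apply H.conj_out b.2 v.2.1.1
        rw [← h0]
        exact Subgroup.mul_mem _ (Subgroup.mul_mem _ (le_norm c.2) H.zN) (Subgroup.inv_mem _ (le_norm c.2))
      | Sum.inr c, Sum.inr c', h =>
        have h0 : c * z * (c : G)⁻¹ = c' * z * (c' : G)⁻¹ := congrArg (fun t : {x : G // IsConj z x} => (t : G)) h
        rw [H.conj_z c.2, H.conj_z c'.2] at h0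
        have h1 : (c : G) * c = c' * c' := mul_right_cancel h0
        have hcb : (c' : G)⁻¹ * c = c * (c' : G)⁻¹ := H.comm _ (M.inv_mem c'.2) _ c.2
        have h2 : ((c : G) * (c' : G)⁻¹) * (c * (c' : G)⁻¹) = 1 := by
          calc ((c : G) * (c' : G)⁻¹) * (c * (c' : G)⁻¹) = c * ((c' : G)⁻¹ * c) * (c' : G)⁻¹ := by group
            _ = (c * c) * ((c' : G)⁻¹ * (c' : G)⁻¹) := by rw [hcb]; group
            _ = 1 := by rw [h1]; group
        rw [Subtype.ext (mul_inv_eq_one.1 (H.sq_ne (M.mul_mem c.2 (M.inv_mem c'.2)) h2))]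
    · rintro ⟨x, hx⟩
      obtain ⟨hx1, hxx⟩ := isConj_inv H.zz H.z1 hx
      by_cases hxN : x ∈ Subgroup.normalizer (M : Set G)
      · obtain ⟨b, hb, rfl⟩ := H.invN' hxN hx1 hxx
        exact ⟨Sum.inr ⟨b, hb⟩, rfl⟩
      · obtain ⟨b, hb, h⟩ := H.exists_comm hxN hxx
        refine ⟨Sum.inl (⟨b, hb⟩, ⟨b⁻¹ * x * b, ⟨?_, ?_⟩, ?_⟩), ?_⟩
        · have := H.conj_out (M.inv_mem hb) hxN
          rwa [inv_inv] at this
        · calc b⁻¹ * x * b * z = b⁻¹ * (x * (b * z * b⁻¹)) * b := by group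
            _ = b⁻¹ * (b * z * b⁻¹ * x) * b := by rw [h]
            _ = _ := by group
        · exact hx.trans (isConj_iff.2 ⟨b⁻¹, by rw [inv_inv]⟩)
        · apply Subtype.ext
          show b * (b⁻¹ * x * b) * b⁻¹ = x
          group
  have e2 : Nat.card {x : G // IsConj z x ∧ x * z = z * x} =
      Nat.card {v : G // (v ∉ Subgroup.normalizer (M : Set G) ∧ v * z = z * v) ∧ IsConj z v} + 1 := by
    rw [← Finite.card_option]
    refine (Nat.card_eq_of_bijective (fun x : Option {v : G // (v ∉ Subgroup.normalizer (M : Set G) ∧ v * z = z * v) ∧ IsConj z v} => (match x with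
      | none => (⟨z, IsConj.refl z, rfl⟩ : {x : G // IsConj z x ∧ x * z = z * x})
      | some v => ⟨v, v.2.2, v.2.1.2⟩ : {x : G // IsConj z x ∧ x * z = z * x})) ⟨?_, ?_⟩).symm
    · intro x y h
      match x, y, h with
      | none, none, _ => rfl
      | none, some v, h =>
        exfalso
        have h0 : z = v := congrArg (fun t : {x : G // IsConj z x ∧ x * z = z * x} => (t : G)) h
        exact v.2.1.1 (h0 ▸ H.zN)
      | some v, none, h =>
        exfalso
        have h0 : (v : G) = z := congrArg (fun t : {x : G // IsConj z x ∧ x * z = z * x} => (t : G)) h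
        exact v.2.1.1 (by rw [h0]; exact H.zN)
      | some v, some w, h =>
        have h0 : (v : G) = w := congrArg (fun t : {x : G // IsConj z x ∧ x * z = z * x} => (t : G)) h
        rw [Subtype.ext h0]
    · rintro ⟨x, hx, hxz⟩
      by_cases hxN : x ∈ Subgroup.normalizer (M : Set G)
      · rcases H.cn x (mem_CN.2 ⟨hxN, hxz⟩) with h | h
        · exact absurd h (isConj_inv H.zz H.z1 hx).1
        · exact ⟨none, Subtype.ext h.symm⟩
      · exact ⟨some ⟨x, ⟨hxN, hxz⟩, hx⟩, rfl⟩
  rw [e2]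
  rw [h3, hm] at e1
  set q := 2 ^ k with hq
  have e3 : (q + 1) * q = (q + 1) * (Nat.card {v : G // (v ∉ Subgroup.normalizer (M : Set G) ∧ v * z = z * v) ∧ IsConj z v} + 1) := by
    rw [mul_add, mul_one, ← e1]; ring
  exact (Nat.eq_of_mul_eq_mul_left (by omega) e3).symm

/-- `t z` lies in a conjugate of `M` for every conjugate `t` of `z` not commuting with `z` -/
theorem prod_mem {k : ℕ} (hk2 : 2 ≤ k) (hk : Nat.card (Subgroup.centralizer ({z} : Set G)) = 2 * 2 ^ k)
    (hm : Nat.card M = 2 ^ k + 1) {t : G} (ht : IsConj z t) (htz : t * z ≠ z * t) :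
    ∃ c x : G, c * z = z * c ∧ x ∈ M ∧ x ≠ 1 ∧ t = c * x * c⁻¹ * z := by
  letI := Fintype.ofFinite G
  obtain ⟨h1, h2, h3, h4⟩ := H.nums hk2 hk hm
  have h5 := H.card_VZ hk2 hk hm
  set q := 2 ^ k with hq
  -- the target set
  let T : Finset G := Finset.univ.filter (fun t : G => IsConj z t ∧ t * z ≠ z * t)
  have hT : T.card = q * q := by
    have e1 : T.card + Nat.card {x : G // IsConj z x ∧ x * z = z * x} = Nat.card {x : G // IsConj z x} := by
      rw [Nat.card_eq_fintype_card, Nat.card_eq_fintype_card, Fintype.card_subtype, Fintype.card_subtype, add_comm]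
      rw [← Finset.card_filter_add_card_filter_not (s := Finset.univ.filter (fun x : G => IsConj z x)) (fun x => x * z = z * x)]
      rw [Finset.filter_filter, Finset.filter_filter]
    rw [h5, h3] at e1
    have e2 : T.card + q = q * q + q := by rw [e1]; ring
    omega
  let S : Finset (G × G) := Finset.univ.filter (fun p : G × G => p.1 * z = z * p.1 ∧ (p.2 ∈ M ∧ p.2 ≠ 1))
  have hS : S.card = 2 * q * q := by
    have e1 : S = (Finset.univ.filter (fun c : G => c * z = z * c)) ×ˢ (Finset.univ.filter (fun x : G => x ∈ M ∧ x ≠ 1)) := by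
      ext p
      simp only [S, Finset.mem_filter, Finset.mem_univ, true_and, Finset.mem_product]
    have e2 : (Finset.univ.filter (fun c : G => c * z = z * c)).card = 2 * q := by
      rw [← hk, Nat.card_eq_fintype_card, Fintype.card_subtype]
      congr 1
      ext c
      simp only [Finset.mem_filter, Finset.mem_univ, true_and, mem_Z]
    have e3 : (Finset.univ.filter (fun x : G => x ∈ M ∧ x ≠ 1)).card = q := by
      have e4 : (Finset.univ.filter (fun x : G => x ∈ M ∧ x ≠ 1)) = (Finset.univ.filter (fun x : G => x ∈ M)).erase 1 := by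
        ext x
        simp only [Finset.mem_filter, Finset.mem_univ, true_and, Finset.mem_erase]
        exact and_comm
      rw [e4, Finset.card_erase_of_mem (by simp only [Finset.mem_filter, Finset.mem_univ, true_and]; exact M.one_mem)]
      have e5 : (Finset.univ.filter (fun x : G => x ∈ M)).card = Nat.card M := by
        rw [Nat.card_eq_fintype_card, Fintype.card_subtype]
      rw [e5, hm]; rfl
    rw [e1, Finset.card_product, e2, e3]
  let f : G × G → G := fun p => p.1 * p.2 * p.1⁻¹ * z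
  have himg : S.image f ⊆ T := by
    intro t ht
    rw [Finset.mem_image] at ht
    obtain ⟨⟨c, x⟩, hp, rfl⟩ := ht
    simp only [S, Finset.mem_filter, Finset.mem_univ, true_and] at hp
    obtain ⟨hc, hx, hx1⟩ := hp
    simp only [T, f, Finset.mem_filter, Finset.mem_univ, true_and]
    have hcz : c⁻¹ * z = z * c⁻¹ := by rw [inv_mul_eq_iff_eq_mul, ← mul_assoc, hc, mul_inv_cancel_right]
    have e0 : c * x * c⁻¹ * z = c * (x * z) * c⁻¹ := by
      calc c * x * c⁻¹ * z = c * x * (c⁻¹ * z) := by group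
        _ = c * x * (z * c⁻¹) := by rw [hcz]
        _ = _ := by group
    constructor
    · rw [e0]
      obtain ⟨m1, m2, m3⟩ := H.Mz hx
      obtain ⟨b, hb, h⟩ := H.invN' m1 m2 m3
      rw [h]
      exact isConj_iff.2 ⟨c * b, by group⟩
    · intro h
      apply hx1
      -- `z` commutes with `c x c⁻¹`
      have e1 : z * (c * x * c⁻¹) = (c * x * c⁻¹) * z := by
        have := mul_right_cancel (a := c * x * c⁻¹ * z) (b := z) (c := z * (c * x * c⁻¹)) (by rw [h]; group)
        exact this.symm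
      have e2 : z * x = x * z := by
        have e3 : z * (c * x * c⁻¹) = c * (z * x) * c⁻¹ := by
          calc z * (c * x * c⁻¹) = (z * c) * x * c⁻¹ := by group
            _ = (c * z) * x * c⁻¹ := by rw [hc]
            _ = _ := by group
        rw [e3, e0] at e1
        exact mul_left_cancel (mul_right_cancel e1)
      have e3 := H.z_conj hx
      rw [e2, mul_inv_cancel_right] at e3
      exact H.sq_ne hx (by nth_rewrite 2 [e3]; exact mul_inv_cancel x)
  have hfib : ∀ a ∈ S.image f, (S.filter (fun p => f p = a)).card ≤ 2 := by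
    intro a ha
    rw [Finset.mem_image] at ha
    obtain ⟨⟨c, x⟩, hp, rfl⟩ := ha
    simp only [S, Finset.mem_filter, Finset.mem_univ, true_and] at hp
    obtain ⟨hc, hx, hx1⟩ := hp
    have hsub : S.filter (fun p => f p = f (c, x)) ⊆ {(c, x), (c * z, x⁻¹)} := by
      rintro ⟨c', x'⟩ hp'
      simp only [S, Finset.mem_filter, Finset.mem_univ, true_and, f] at hp'
      obtain ⟨⟨hc', hx', hx'1⟩, he⟩ := hp'
      have e1 := mul_right_cancel he
      have e2 : c⁻¹ * c' ∈ CN M z := by
        rw [mem_CN]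
        constructor
        · apply H.ti _ x' hx' hx'1
          have e3 : c⁻¹ * c' * x' * (c⁻¹ * c')⁻¹ = c⁻¹ * (c' * x' * c'⁻¹) * c := by group
          rw [e3, e1]
          have e4 : c⁻¹ * (c * x * c⁻¹) * c = x := by group
          rw [e4]; exact hx
        · exact mem_Z.1 (Subgroup.mul_mem _ (Subgroup.inv_mem _ (mem_Z.2 hc)) (mem_Z.2 hc'))
      rw [Finset.mem_insert, Finset.mem_singleton]
      rcases H.cn _ e2 with h | h
      · left
        have h6 : c = c' := inv_mul_eq_one.1 h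
        subst h6
        rw [mul_left_cancel (mul_right_cancel e1)]
      · right
        have h6 : c' = c * z := by rw [← h]; group
        subst h6
        have h7 : c * z * x' * (c * z)⁻¹ = c * (z * x' * z⁻¹) * c⁻¹ := by group
        rw [h7, H.z_conj hx'] at e1
        have h8 := mul_left_cancel (mul_right_cancel e1)
        rw [← h8, inv_inv]
    exact (Finset.card_le_card hsub).trans (Finset.card_le_two)
  have hle := Finset.card_le_mul_card_image S 2 hfib
  have himg_eq : S.image f = T := by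
    apply Finset.eq_of_subset_of_card_le himg
    rw [hT]
    rw [hS] at hle
    have : 2 * (q * q) ≤ 2 * (S.image f).card := by rw [← mul_assoc]; exact hle
    omega
  have htT : t ∈ S.image f := by
    rw [himg_eq]
    simp only [T, Finset.mem_filter, Finset.mem_univ, true_and]
    exact ⟨ht, htz⟩
  rw [Finset.mem_image] at htT
  obtain ⟨⟨c, x⟩, hp, h⟩ := htT
  simp only [S, Finset.mem_filter, Finset.mem_univ, true_and] at hp
  exact ⟨c, x, hp.1, hp.2.1, hp.2.2, h.symm⟩

/-- the involutions not conjugate to `z` -/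
theorem e_norm {k : ℕ} (hk2 : 2 ≤ k) (hk : Nat.card (Subgroup.centralizer ({z} : Set G)) = 2 * 2 ^ k)
    (hm : Nat.card M = 2 ^ k + 1) {e : G} (he1 : e ≠ 1) (hee : e * e = 1) (hez : ¬ IsConj z e) :
    e ∈ Subgroup.normalizer ((Subgroup.centralizer ({z} : Set G) : Subgroup G) : Set G) := by
  apply H.norm_of_comm
  by_contra hne
  obtain ⟨c, x, hc, hx, hx1, h⟩ := H.prod_mem hk2 hk hm (t := e * z * e⁻¹) (isConj_iff.2 ⟨e, rfl⟩) hne
  have hei : e⁻¹ = e := inv_eq_of_mul_eq_one_left hee
  have h1 : (e * z) * (e * z) = c * x * c⁻¹ := by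
    have h2 : e * z * e⁻¹ * z = c * x * c⁻¹ * (z * z) := by rw [h]; group
    rw [H.zz, mul_one, hei] at h2
    rw [← h2]; group
  have h2 : (c⁻¹ * (e * z) * c) * x = x * (c⁻¹ * (e * z) * c) := by
    have h3 : x = c⁻¹ * ((e * z) * (e * z)) * c := by rw [h1]; group
    rw [h3]; group
  have h3 := H.cent_mem hx hx1 h2
  have h4 : c⁻¹ * e * c ∈ Subgroup.normalizer (M : Set G) := by
    have h5 : c⁻¹ * e * c = (c⁻¹ * (e * z) * c) * z⁻¹ := by
      have h6 : c * z⁻¹ = z⁻¹ * c := by rw [eq_inv_mul_iff_mul_eq, ← mul_assoc, ← hc, mul_inv_cancel_right]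
      calc c⁻¹ * e * c = c⁻¹ * (e * z) * (z⁻¹ * c) := by group
        _ = c⁻¹ * (e * z) * (c * z⁻¹) := by rw [h6]
        _ = _ := by group
    rw [h5]
    exact Subgroup.mul_mem _ h3 (Subgroup.inv_mem _ H.zN)
  have h5 : c⁻¹ * e * c ≠ 1 := by
    intro h5
    apply he1
    have : e = c * (c⁻¹ * e * c) * c⁻¹ := by group
    rw [this, h5]; group
  have h6 : (c⁻¹ * e * c) * (c⁻¹ * e * c) = 1 := by
    calc (c⁻¹ * e * c) * (c⁻¹ * e * c) = c⁻¹ * (e * e) * c := by group
      _ = 1 := by rw [hee]; group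
  obtain ⟨b, hb, h7⟩ := H.invN' h4 h5 h6
  apply hez
  refine isConj_iff.2 ⟨c * b, ?_⟩
  calc c * b * z * (c * b)⁻¹ = c * (b * z * b⁻¹) * c⁻¹ := by group
    _ = e := by rw [← h7]; group

theorem card_S {k : ℕ} (hk2 : 2 ≤ k) (hk : Nat.card (Subgroup.centralizer ({z} : Set G)) = 2 * 2 ^ k)
    (hm : Nat.card M = 2 ^ k + 1) :
    Nat.card (Subgroup.normalizer ((Subgroup.centralizer ({z} : Set G) : Subgroup G) : Set G)) = 2 ^ (2 * k + 1) := by
  set S := Subgroup.normalizer ((Subgroup.centralizer ({z} : Set G) : Subgroup G) : Set G) with hS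
  have hzZ : z ∈ Subgroup.centralizer ({z} : Set G) := mem_Z.2 rfl
  have hzS : z ∈ S := Subgroup.le_normalizer hzZ
  have h1 := CharBase.card_isConj_mul_card_centralizer (⟨z, hzS⟩ : S)
  have h2 : Nat.card {x : S // IsConj (⟨z, hzS⟩ : S) x} = Nat.card {x : G // IsConj z x ∧ x * z = z * x} := by
    refine Nat.card_eq_of_bijective (fun x : {x : S // IsConj (⟨z, hzS⟩ : S) x} =>
      (⟨((x : S) : G), by
        obtain ⟨g, hg⟩ := isConj_iff.1 x.2
        have hg' : (g : G) * z * (g : G)⁻¹ = ((x : S) : G) := congrArg (fun t : S => (t : G)) hg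
        refine ⟨isConj_iff.2 ⟨g, hg'⟩, ?_⟩
        rw [← hg']
        exact mem_Z.1 ((Subgroup.mem_normalizer_iff.1 g.2 z).1 hzZ)⟩ : {x : G // IsConj z x ∧ x * z = z * x})) ⟨?_, ?_⟩
    · intro x y h
      have h0 := congrArg (fun t : {x : G // IsConj z x ∧ x * z = z * x} => (t : G)) h
      exact Subtype.ext (Subtype.ext h0)
    · rintro ⟨x, hx, hxz⟩
      obtain ⟨g, rfl⟩ := isConj_iff.1 hx
      have hg := H.norm_of_comm hxz
      refine ⟨⟨⟨g * z * g⁻¹, ?_⟩, ?_⟩, rfl⟩
      · exact Subgroup.mul_mem _ (Subgroup.mul_mem _ hg hzS) (Subgroup.inv_mem _ hg)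
      · exact isConj_iff.2 ⟨⟨g, hg⟩, Subtype.ext rfl⟩
  have h3 : Nat.card (Subgroup.centralizer ({(⟨z, hzS⟩ : S)} : Set S)) = Nat.card (Subgroup.centralizer ({z} : Set G)) := by
    refine Nat.card_eq_of_bijective (fun c : Subgroup.centralizer ({(⟨z, hzS⟩ : S)} : Set S) =>
      (⟨((c : S) : G), mem_Z.2 (congrArg (fun t : S => (t : G)) (Subgroup.mem_centralizer_singleton_iff.1 c.2))⟩ :
        Subgroup.centralizer ({z} : Set G))) ⟨?_, ?_⟩
    · intro x y h
      have h0 := congrArg (fun t : Subgroup.centralizer ({z} : Set G) => (t : G)) h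
      exact Subtype.ext (Subtype.ext h0)
    · rintro ⟨c, hc⟩
      refine ⟨⟨⟨c, Subgroup.le_normalizer hc⟩, ?_⟩, rfl⟩
      rw [Subgroup.mem_centralizer_singleton_iff]
      exact Subtype.ext (mem_Z.1 hc)
  rw [h2, h3, H.card_VZ hk2 hk hm, hk] at h1
  rw [← h1, pow_succ, two_mul k, pow_add]
  ring

/-- the final case -/
theorem caseB2 {k : ℕ} (hk2 : 2 ≤ k) (hk : Nat.card (Subgroup.centralizer ({z} : Set G)) = 2 * 2 ^ k)
    (hm : Nat.card M = 2 ^ k + 1) :
    ∃ (d : ℕ) (E : Subgroup G), 1 ≤ d ∧ E.Normal ∧ Cfsg.IsElementaryAbelian 2 E ∧ Nat.card E = 2 ^ (2 * d) ∧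
        E ⊓ Subgroup.normalizer (M : Set G) = ⊥ ∧ E ⊔ Subgroup.normalizer (M : Set G) = ⊤ ∧
        Nonempty (↥(Subgroup.normalizer (M : Set G)) ≃* DihedralGroup (2 ^ d + 1)) := by
  haveI : Fact (Nat.Prime 2) := ⟨Nat.prime_two⟩
  obtain ⟨h1, h2, h3, h4⟩ := H.nums hk2 hk hm
  have hScard := H.card_S hk2 hk hm
  set S := Subgroup.normalizer ((Subgroup.centralizer ({z} : Set G) : Subgroup G) : Set G) with hS
  have hSp : IsPGroup 2 S := IsPGroup.of_card hScard
  set O := S.normalCore with hO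
  have hOn : O.Normal := Subgroup.normalCore_normal S
  have hOp : IsPGroup 2 O := hSp.to_le (Subgroup.normalCore_le S)
  have hE : ∀ e : G, e ≠ 1 → e * e = 1 → ¬ IsConj z e → e ∈ O := by
    intro e he1 hee hez g
    apply H.e_norm hk2 hk hm
    · intro h; exact he1 (conj_eq_one_iff.1 h)
    · calc g * e * g⁻¹ * (g * e * g⁻¹) = g * (e * e) * g⁻¹ := by group
        _ = 1 := by rw [hee]; group
    · intro h
      exact hez (h.trans (isConj_iff.2 ⟨g⁻¹, by group⟩))
  -- `O ∩ M = 1`
  have hOM : ∀ x ∈ O, x ∈ M → x = 1 := by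
    intro x hx hxM
    by_contra hx1
    obtain ⟨n, hn⟩ := IsPGroup.iff_orderOf.1 hOp ⟨x, hx⟩
    rw [Subgroup.orderOf_mk] at hn
    have h5 : orderOf x ∣ Nat.card M := by
      have := orderOf_dvd_natCard (⟨x, hxM⟩ : M)
      rwa [Subgroup.orderOf_mk] at this
    have h6 : Nat.Coprime (orderOf x) (Nat.card M) := by
      rw [hn]; exact Nat.Coprime.pow_left _ ((Nat.coprime_two_left).2 H.odd_M)
    have h7 := Nat.eq_one_of_dvd_coprimes h6 dvd_rfl h5
    exact hx1 (orderOf_eq_one_iff.1 h7)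
  have hON : Disjoint O (Subgroup.normalizer (M : Set G)) := by
    rw [Subgroup.disjoint_def]
    intro x hx hxN
    obtain ⟨a, ha, c, hc, hcz, rfl⟩ := H.fac x hxN
    rcases H.cn c (mem_CN.2 ⟨hc, hcz⟩) with rfl | rfl
    · rw [mul_one] at hx ⊢
      exact hOM a hx ha
    · exfalso
      obtain ⟨m1, m2, m3⟩ := H.Mz ha
      obtain ⟨y, hy, hy1⟩ := H.ne
      have h5 := H.inverts m1 m2 m3 y hy
      have h6 : (a * c) * y * (a * c)⁻¹ * y⁻¹ ∈ O := by
        have h7 : (a * c) * y * (a * c)⁻¹ * y⁻¹ = (a * c) * (y * (a * c)⁻¹ * y⁻¹) := by group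
        rw [h7]
        exact O.mul_mem hx (hOn.conj_mem _ (O.inv_mem hx) y)
      rw [h5] at h6
      have h7 := hOM _ h6 (M.mul_mem (M.inv_mem hy) (M.inv_mem hy))
      have h8 : y * y = 1 := by
        have := congrArg (fun t : G => t⁻¹) h7
        simp only [mul_inv_rev, inv_inv, inv_one] at this
        exact this
      exact hy1 (H.sq_ne hy h8)
  have hNcard := H.card_N
  have hpow : (2 : ℕ) ^ (2 * k) = 2 ^ k * 2 ^ k := by rw [two_mul, pow_add]
  -- upper bound
  have hOle : Nat.card O ≤ 2 ^ (2 * k) := by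
    have h5 := Nat.card_le_card_of_injective _ (Subgroup.mul_injective_of_disjoint hON)
    rw [Nat.card_prod, hNcard, hm, h2] at h5
    have h6 : Nat.card O * (2 * (2 ^ k + 1)) ≤ 2 ^ (2 * k) * (2 * (2 ^ k + 1)) := by
      calc _ ≤ _ := h5
        _ = _ := by ring
    exact Nat.le_of_mul_le_mul_right h6 (by positivity)
  -- lower bound
  have hcE : Nat.card {x : G // (x ≠ 1 ∧ x * x = 1) ∧ ¬ IsConj z x} + 1 = 2 ^ (2 * k) := by
    letI := Fintype.ofFinite G
    have e1 : Nat.card {x : G // (x ≠ 1 ∧ x * x = 1) ∧ ¬ IsConj z x} + Nat.card {x : G // IsConj z x} =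
        Nat.card {x : G // x ≠ 1 ∧ x * x = 1} := by
      rw [Nat.card_eq_fintype_card, Nat.card_eq_fintype_card, Nat.card_eq_fintype_card, Fintype.card_subtype,
        Fintype.card_subtype, Fintype.card_subtype, add_comm]
      rw [← Finset.card_filter_add_card_filter_not (s := Finset.univ.filter (fun x : G => x ≠ 1 ∧ x * x = 1)) (fun x => IsConj z x)]
      rw [Finset.filter_filter, Finset.filter_filter]
      congr 2
      ext x
      simp only [Finset.mem_filter, Finset.mem_univ, true_and]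
      constructor
      · intro h; exact ⟨isConj_inv H.zz H.z1 h, h⟩
      · intro h; exact h.2
    omega
  have hinj : Function.Injective (fun o : Option {x : G // (x ≠ 1 ∧ x * x = 1) ∧ ¬ IsConj z x} => (match o with
      | none => (1 : O)
      | some x => ⟨x, hE x x.2.1.1 x.2.1.2 x.2.2⟩ : O)) := by
    intro x y h
    match x, y, h with
    | none, none, _ => rfl
    | none, some v, h =>
      exfalso
      have h0 : (1 : G) = v := congrArg (fun t : O => (t : G)) h
      exact v.2.1.1 h0.symm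
    | some v, none, h =>
      exfalso
      have h0 : (v : G) = 1 := congrArg (fun t : O => (t : G)) h
      exact v.2.1.1 h0
    | some v, some w, h =>
      have h0 : (v : G) = w := congrArg (fun t : O => (t : G)) h
      rw [Subtype.ext h0]
  have hcO : Nat.card (Option {x : G // (x ≠ 1 ∧ x * x = 1) ∧ ¬ IsConj z x}) = 2 ^ (2 * k) := by
    rw [Finite.card_option]; exact hcE
  have hOcard : Nat.card O = 2 ^ (2 * k) := by
    apply le_antisymm hOle
    rw [← hcO]
    exact Nat.card_le_card_of_injective _ hinj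
  have hbij := (Nat.bijective_iff_injective_and_card _).2 ⟨hinj, by rw [hcO, hOcard]⟩
  have hOinv : ∀ x ∈ O, x * x = 1 := by
    intro x hx
    obtain ⟨o, ho⟩ := hbij.2 ⟨x, hx⟩
    match o, ho with
    | none, ho =>
      have h0 : (1 : G) = x := congrArg (fun t : O => (t : G)) ho
      rw [← h0, one_mul]
    | some v, ho =>
      have h0 : (v : G) = x := congrArg (fun t : O => (t : G)) ho
      rw [← h0]; exact v.2.1.2
  have hOc : ∀ a ∈ O, ∀ b ∈ O, a * b = b * a := by
    intro a ha b hb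
    have e1 : a⁻¹ = a := inv_eq_of_mul_eq_one_left (hOinv a ha)
    have e2 : b⁻¹ = b := inv_eq_of_mul_eq_one_left (hOinv b hb)
    have e3 : (a * b)⁻¹ = a * b := inv_eq_of_mul_eq_one_left (hOinv _ (O.mul_mem ha hb))
    rw [mul_inv_rev, e1, e2] at e3
    exact e3.symm
  have hcompl : Subgroup.IsComplement' O (Subgroup.normalizer (M : Set G)) :=
    Subgroup.isComplement'_of_card_mul_and_disjoint (by rw [hOcard, hNcard, hm, h2]; ring) hON
  -- `M` is cyclic
  have hcyc : IsCyclic M := by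
    letI : CommGroup M := { (inferInstance : Group M) with mul_comm := fun a b => Subtype.ext (H.comm a a.2 b b.2) }
    letI : CommGroup O := { (inferInstance : Group O) with mul_comm := fun a b => Subtype.ext (hOc a a.2 b b.2) }
    haveI : Nontrivial O := by
      rw [← Finite.one_lt_card_iff_nontrivial, hOcard]
      exact Nat.one_lt_two_pow (by omega)
    have hfpf : Frob.IsFPF ((MulAut.conjNormal (H := O)).comp M.subtype : M →* MulAut O) := by
      intro a ha w hw
      by_contra hw1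
      have h5 : (a : G) * w * (a : G)⁻¹ = w := congrArg (fun t : O => (t : G)) hw
      have h6 : (w : G) * a = a * w := (mul_inv_eq_iff_eq_mul.1 h5).symm
      exact hw1 (Subtype.ext (H.cent a a.2 (fun h => ha (Subtype.ext h)) w (hOinv w w.2) h6))
    exact hfpf.isCyclic_of_comm
  refine ⟨k, O, by omega, hOn, ⟨⟨⟨fun a b => Subtype.ext (hOc a a.2 b b.2)⟩⟩, fun a ha => by rw [sq]; exact hOinv a ha⟩,
    hOcard, hON.eq_bot, hcompl.sup_eq_top, ?_⟩
  obtain ⟨g, hg⟩ := hcyc.exists_generator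
  have hgo : orderOf g = 2 ^ k + 1 := by rw [orderOf_eq_card_of_forall_mem_zpowers hg, hm]
  have hgN : (g : G) ∈ Subgroup.normalizer (M : Set G) := le_norm g.2
  refine MaxClass.nonempty_mulEquiv_dihedral (a := (⟨g, hgN⟩ : Subgroup.normalizer (M : Set G)))
    (b := ⟨z, H.zN⟩) (by positivity) ?_ ?_ ?_ ?_ (by rw [hNcard, hm])
  · rw [Subgroup.orderOf_mk, Subgroup.orderOf_coe, hgo]
  · intro h
    obtain ⟨n, hn⟩ := Subgroup.mem_zpowers_iff.1 h
    have h5 : (g : G) ^ n = z := congrArg (fun t : Subgroup.normalizer (M : Set G) => (t : G)) hn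
    have h6 : z ∈ M := by rw [← h5]; exact M.zpow_mem g.2 n
    exact H.z1 (H.sq_ne h6 H.zz)
  · apply Subtype.ext
    show z ^ 2 = 1
    rw [sq]; exact H.zz
  · apply Subtype.ext
    show z * g * z⁻¹ = (g : G)⁻¹
    exact H.z_conj g.2

end HypB

end Cfsg.Agent.BTI
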