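import Cfsg.Agent.BTI.Basic

set_option autoImplicit false

/-! # Bender's TI theorem: counting (helper2) -/

namespace Cfsg.Agent.BTI

open scoped Classical

universe u

variable {G : Type u} [Group G] [Finite G] {M : Subgroup G} {z : G}

/-- involutions outside `N(M)` -/
abbrev Out (M : Subgroup G) : Type u := {u : G // u ∉ Subgroup.normalizer (M : Set G) ∧ u * u = 1}

theorem Hyp.card_invs_le (H : Hyp M z) : Nat.card {g : G // orderOf g = 2} ≤ Nat.card (Out M) + Nat.card M := by
  rw [← Nat.card_sum]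
  have key : ∀ g : {g : G // orderOf g = 2}, (g : G) * g = 1 ∧ (g : G) ≠ 1 := by
    intro g
    have h := g.2
    refine ⟨by have h2 := pow_orderOf_eq_one (g : G); rw [h] at h2; rw [← sq]; exact h2, ?_⟩
    intro h1
    rw [h1, orderOf_one] at h
    omega
  have hmem : ∀ g : {g : G // orderOf g = 2}, (g : G) ∈ Subgroup.normalizer (M : Set G) → (g : G) * z⁻¹ ∈ M := by
    intro g hg
    obtain ⟨a, ha, h⟩ := H.invN hg (key g).2 (key g).1
    rw [h, mul_inv_cancel_right]; exact ha
  refine Nat.card_le_card_of_injective (fun g : {g : G // orderOf g = 2} =>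
    if h : (g : G) ∈ Subgroup.normalizer (M : Set G) then (Sum.inr ⟨(g : G) * z⁻¹, hmem g h⟩ : Out M ⊕ M)
      else Sum.inl ⟨(g : G), h, (key g).1⟩) ?_
  intro g g' h
  by_cases h1 : (g : G) ∈ Subgroup.normalizer (M : Set G)
  · by_cases h2 : (g' : G) ∈ Subgroup.normalizer (M : Set G)
    · simp only [h1, h2, dif_pos, Sum.inr.injEq, Subtype.mk.injEq, mul_left_inj] at h
      exact Subtype.ext h
    · simp only [h1, h2, dif_pos, dif_neg, not_false_eq_true, reduceCtorEq] at h
  · by_cases h2 : (g' : G) ∈ Subgroup.normalizer (M : Set G)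
    · simp only [h1, h2, dif_pos, dif_neg, not_false_eq_true, reduceCtorEq] at h
    · simp only [h1, h2, dif_neg, not_false_eq_true, Sum.inl.injEq, Subtype.mk.injEq] at h
      exact Subtype.ext h

theorem Hyp.all (H : Hyp M z) (hbig : M.index < Nat.card {g : G // orderOf g = 2}) :
    ∀ g : G, g ∉ Subgroup.normalizer (M : Set G) → ∃ a ∈ M, (a * g) * (a * g) = 1 := by
  intro g hg
  by_contra hcon
  push Not at hcon
  -- injection
  have hinj : Function.Injective (fun x : (Subgroup.normalizer (M : Set G)) ⊕ ((M × Out M) ⊕ (M × M)) =>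
      (match x with
       | Sum.inl n => (n : G)
       | Sum.inr (Sum.inl (a, u)) => (a : G) * (u : G)
       | Sum.inr (Sum.inr (a, b)) => (a : G) * g * b : G)) := by
    have d1 : ∀ (n : Subgroup.normalizer (M : Set G)) (a : M) (u : Out M), (n : G) ≠ a * u := by
      intro n a u h
      apply u.2.1
      have : (u : G) = (a : G)⁻¹ * n := by rw [h]; group
      rw [this]
      exact Subgroup.mul_mem _ (Subgroup.inv_mem _ (le_norm a.2)) n.2
    have d2 : ∀ (n : Subgroup.normalizer (M : Set G)) (a b : M), (n : G) ≠ a * g * b := by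
      intro n a b h
      apply hg
      have : g = (a : G)⁻¹ * n * (b : G)⁻¹ := by rw [h]; group
      rw [this]
      exact Subgroup.mul_mem _ (Subgroup.mul_mem _ (Subgroup.inv_mem _ (le_norm a.2)) n.2) (Subgroup.inv_mem _ (le_norm b.2))
    have d3 : ∀ (a : M) (u : Out M) (c b : M), (a : G) * u ≠ c * g * b := by
      intro a u c b h
      -- b a⁻¹ u b⁻¹ ... `b * u * b⁻¹ = (b a⁻¹ c) g`
      apply hcon ((b : G) * (a : G)⁻¹ * c) (M.mul_mem (M.mul_mem b.2 (M.inv_mem a.2)) c.2)
      have h1 : (b : G) * (a : G)⁻¹ * c * g = b * u * (b : G)⁻¹ := by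
        calc (b : G) * (a : G)⁻¹ * c * g = (b : G) * (a : G)⁻¹ * (c * g * b) * (b : G)⁻¹ := by group
          _ = _ := by rw [← h]; group
      rw [h1]
      calc (b : G) * u * (b : G)⁻¹ * (b * u * (b : G)⁻¹) = b * ((u : G) * u) * (b : G)⁻¹ := by group
        _ = 1 := by rw [u.2.2]; group
    intro x y h
    match x, y, h with
    | Sum.inl n, Sum.inl n', h => exact congrArg Sum.inl (Subtype.ext h)
    | Sum.inl n, Sum.inr (Sum.inl (a, u)), h => exact absurd h (d1 n a u)
    | Sum.inl n, Sum.inr (Sum.inr (a, b)), h => exact absurd h (d2 n a b)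
    | Sum.inr (Sum.inl (a, u)), Sum.inl n, h => exact absurd h.symm (d1 n a u)
    | Sum.inr (Sum.inl (a, u)), Sum.inr (Sum.inl (a', u')), h =>
      have h' : (a : G) * u = a' * u' := h
      have h1 : ((a' : G)⁻¹ * a) * (u : G) = u' := by rw [mul_assoc, h']; group
      have h2 := H.uniq u.2.1 (M.mul_mem (M.inv_mem a'.2) a.2) M.one_mem (by rw [h1]; exact u'.2.2)
        (by rw [one_mul]; exact u.2.2)
      have h3 : a' = a := Subtype.ext (inv_mul_eq_one.1 h2)
      subst h3
      rw [mul_right_inj] at h'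
      have h4 : u = u' := Subtype.ext h'
      rw [h4]
    | Sum.inr (Sum.inl (a, u)), Sum.inr (Sum.inr (c, b)), h => exact absurd h (d3 a u c b)
    | Sum.inr (Sum.inr (a, b)), Sum.inl n, h => exact absurd h.symm (d2 n a b)
    | Sum.inr (Sum.inr (c, b)), Sum.inr (Sum.inl (a, u)), h => exact absurd h.symm (d3 a u c b)
    | Sum.inr (Sum.inr (a, b)), Sum.inr (Sum.inr (a', b')), h =>
      obtain ⟨h1, h2⟩ := H.free hg a.2 b.2 a'.2 b'.2 h
      rw [Subtype.ext h1, Subtype.ext h2]
  have h1 := Nat.card_le_card_of_injective _ hinj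
  rw [Nat.card_sum, Nat.card_sum, Nat.card_prod, Nat.card_prod] at h1
  have h2 := H.card_invs_le
  have h3 := Subgroup.card_mul_index M
  have h4 : Nat.card M * M.index + Nat.card M ≤ Nat.card M * (Nat.card (Out M) + Nat.card M) := by
    have : M.index + 1 ≤ Nat.card (Out M) + Nat.card M := by omega
    calc Nat.card M * M.index + Nat.card M = Nat.card M * (M.index + 1) := by ring
      _ ≤ _ := Nat.mul_le_mul_left _ this
  have h5 : 0 < Nat.card (Subgroup.normalizer (M : Set G)) := Nat.card_pos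
  have h6 : 0 < Nat.card M := Nat.card_pos
  rw [h3] at h4
  have h7 : Nat.card M * (Nat.card (Out M) + Nat.card M) = Nat.card M * Nat.card (Out M) + Nat.card M * Nat.card M := by ring
  omega

/-- the configuration after the counting argument -/
structure Hyp2 (M : Subgroup G) (z : G) : Prop extends Hyp M z where
  all : ∀ g : G, g ∉ Subgroup.normalizer (M : Set G) → ∃ a ∈ M, (a * g) * (a * g) = 1

namespace Hyp2

variable (H : Hyp2 M z)
include H

theorem card_out : Nat.card M * Nat.card (Out M) + Nat.card (Subgroup.normalizer (M : Set G)) = Nat.card G := by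
  rw [add_comm, ← Nat.card_prod, ← Nat.card_sum]
  refine Nat.card_eq_of_bijective (fun x : (Subgroup.normalizer (M : Set G)) ⊕ (M × Out M) =>
      (match x with
       | Sum.inl n => (n : G)
       | Sum.inr (a, u) => (a : G) * (u : G) : G)) ⟨?_, ?_⟩
  · have d1 : ∀ (n : Subgroup.normalizer (M : Set G)) (a : M) (u : Out M), (n : G) ≠ a * u := by
      intro n a u h
      apply u.2.1
      have : (u : G) = (a : G)⁻¹ * n := by rw [h]; group
      rw [this]
      exact Subgroup.mul_mem _ (Subgroup.inv_mem _ (le_norm a.2)) n.2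
    intro x y h
    match x, y, h with
    | Sum.inl n, Sum.inl n', h => exact congrArg Sum.inl (Subtype.ext h)
    | Sum.inl n, Sum.inr (a, u), h => exact absurd h (d1 n a u)
    | Sum.inr (a, u), Sum.inl n, h => exact absurd h.symm (d1 n a u)
    | Sum.inr (a, u), Sum.inr (a', u'), h =>
      have h' : (a : G) * u = a' * u' := h
      have h1 : ((a' : G)⁻¹ * a) * (u : G) = u' := by rw [mul_assoc, h']; group
      have h2 := H.uniq u.2.1 (M.mul_mem (M.inv_mem a'.2) a.2) M.one_mem (by rw [h1]; exact u'.2.2)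
        (by rw [one_mul]; exact u.2.2)
      have h3 : a' = a := Subtype.ext (inv_mul_eq_one.1 h2)
      subst h3
      rw [mul_right_inj] at h'
      have h4 : u = u' := Subtype.ext h'
      rw [h4]
  · intro g
    by_cases hg : g ∈ Subgroup.normalizer (M : Set G)
    · exact ⟨Sum.inl ⟨g, hg⟩, rfl⟩
    · obtain ⟨a, ha, h⟩ := H.all g hg
      refine ⟨Sum.inr (⟨a⁻¹, M.inv_mem ha⟩, ⟨a * g, ?_, h⟩), ?_⟩
      · intro h1
        apply hg
        have := Subgroup.mul_mem _ (Subgroup.inv_mem _ (le_norm ha)) h1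
        rwa [inv_mul_cancel_left] at this
      · show a⁻¹ * (a * g) = g
        group

/-- an element outside `N` commuting with `z` is an involution -/
theorem inv_of_comm {v : G} (hv : v ∉ Subgroup.normalizer (M : Set G)) (hvz : v * z = z * v) : v * v = 1 := by
  obtain ⟨a, ha, h⟩ := H.all v hv
  have h1 : (a⁻¹ * v) * (a⁻¹ * v) = 1 := by
    have h2 := H.z_conj ha
    have h3 : z * (a * v) * z⁻¹ = a⁻¹ * v := by
      rw [← h2]
      calc z * (a * v) * z⁻¹ = (z * a * z⁻¹) * (z * v) * z⁻¹ := by group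
        _ = (z * a * z⁻¹) * (v * z) * z⁻¹ := by rw [hvz]
        _ = _ := by group
    rw [← h3]
    calc z * (a * v) * z⁻¹ * (z * (a * v) * z⁻¹) = z * ((a * v) * (a * v)) * z⁻¹ := by group
      _ = 1 := by rw [h]; group
  have h2 := H.uniq hv ha (M.inv_mem ha) h h1
  have h3 := H.sq_ne ha (by nth_rewrite 2 [h2]; exact mul_inv_cancel a)
  rwa [h3, one_mul] at h

/-- such an involution inverts `C_N(z)` -/
theorem inverts_C {v c : G} (hv : v ∉ Subgroup.normalizer (M : Set G)) (hvz : v * z = z * v)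
    (hc : c ∈ Subgroup.normalizer (M : Set G)) (hcz : c * z = z * c) : v * c * v⁻¹ = c⁻¹ := by
  have h1 := H.inv_of_comm hv hvz
  have h2 := H.inv_of_comm (v := v * c) (fun h => hv (by
    have := Subgroup.mul_mem _ h (Subgroup.inv_mem _ hc)
    rwa [mul_inv_cancel_right] at this)) (by rw [mul_assoc, hcz, ← mul_assoc, hvz, mul_assoc])
  have h3 : v⁻¹ = v := inv_eq_of_mul_eq_one_left h1
  rw [h3]
  exact eq_inv_of_mul_eq_one_left (by rw [← h2]; group)

/-- every involution outside `N` commutes with exactly one involution of `N` -/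
theorem exists_comm {u : G} (hu : u ∉ Subgroup.normalizer (M : Set G)) (huu : u * u = 1) :
    ∃ b ∈ M, u * (b * z * b⁻¹) = (b * z * b⁻¹) * u := by
  -- the coset `M z u` contains a unique involution
  have hzu : z * u ∉ Subgroup.normalizer (M : Set G) := fun h => hu (by
    have := Subgroup.mul_mem _ (Subgroup.inv_mem _ H.zN) h
    rwa [inv_mul_cancel_left] at this)
  obtain ⟨a, ha, h⟩ := H.all _ hzu
  obtain ⟨b, hb, rfl⟩ := H.exists_sqrt ha
  refine ⟨b, hb, ?_⟩
  rw [H.conj_z hb]
  have h1 : (b * b * z) * (b * b * z) = 1 := (H.Mz (M.mul_mem hb hb)).2.2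
  have h2 : (b * b * z)⁻¹ = b * b * z := inv_eq_of_mul_eq_one_left h1
  have h3 : u⁻¹ = u := inv_eq_of_mul_eq_one_left huu
  have h4 : (b * b * z * u) * (b * b * z * u) = 1 := by rw [← h]; group
  have h5 : (b * b * z * u)⁻¹ = b * b * z * u := inv_eq_of_mul_eq_one_left h4
  rw [mul_inv_rev, h2, h3] at h5
  exact h5

theorem comm_uniq {u b b' : G} (hu : u ∉ Subgroup.normalizer (M : Set G)) (huu : u * u = 1) (hb : b ∈ M) (hb' : b' ∈ M)
    (h : u * (b * z * b⁻¹) = (b * z * b⁻¹) * u) (h' : u * (b' * z * b'⁻¹) = (b' * z * b'⁻¹) * u) : b = b' := by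
  have hzu : z * u ∉ Subgroup.normalizer (M : Set G) := fun h => hu (by
    have := Subgroup.mul_mem _ (Subgroup.inv_mem _ H.zN) h
    rwa [inv_mul_cancel_left] at this)
  have key : ∀ {c : G}, c ∈ M → u * (c * z * c⁻¹) = (c * z * c⁻¹) * u → (c * c * (z * u)) * (c * c * (z * u)) = 1 := by
    intro c hc h
    rw [H.conj_z hc] at h
    have h1 : (c * c * z) * (c * c * z) = 1 := (H.Mz (M.mul_mem hc hc)).2.2
    calc (c * c * (z * u)) * (c * c * (z * u)) = (c * c * z) * (u * (c * c * z)) * u := by group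
      _ = (c * c * z) * (c * c * z * u) * u := by rw [h]
      _ = ((c * c * z) * (c * c * z)) * (u * u) := by group
      _ = 1 := by rw [h1, huu, one_mul]
  have h1 := H.uniq hzu (M.mul_mem hb hb) (M.mul_mem hb' hb') (key hb h) (key hb' h')
  have hcb : b'⁻¹ * b = b * b'⁻¹ := H.comm _ (M.inv_mem hb') _ hb
  have h2 : (b * b'⁻¹) * (b * b'⁻¹) = 1 := by
    calc (b * b'⁻¹) * (b * b'⁻¹) = b * (b'⁻¹ * b) * b'⁻¹ := by group
      _ = (b * b) * (b'⁻¹ * b'⁻¹) := by rw [hcb]; group
      _ = 1 := by rw [h1]; group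
  exact mul_inv_eq_one.1 (H.sq_ne (M.mul_mem hb (M.inv_mem hb')) h2)

theorem conj_out {u b : G} (hb : b ∈ M) (hu : u ∉ Subgroup.normalizer (M : Set G)) :
    b * u * b⁻¹ ∉ Subgroup.normalizer (M : Set G) := by
  intro h
  apply hu
  have := Subgroup.mul_mem _ (Subgroup.mul_mem _ (Subgroup.inv_mem _ (le_norm hb)) h) (le_norm hb)
  have e : b⁻¹ * (b * u * b⁻¹) * b = u := by group
  rwa [e] at this

/-- elements outside `N` commuting with `z` -/
abbrev _root_.Cfsg.Agent.BTI.HC (M : Subgroup G) (z : G) : Type u :=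
  {v : G // v ∉ Subgroup.normalizer (M : Set G) ∧ v * z = z * v}

theorem card_out' : Nat.card (Out M) = Nat.card M * Nat.card (HC M z) := by
  rw [← Nat.card_prod]
  symm
  refine Nat.card_eq_of_bijective (fun x : M × HC M z => (⟨(x.1 : G) * x.2 * (x.1 : G)⁻¹,
    H.conj_out x.1.2 x.2.2.1, by
      have := H.inv_of_comm x.2.2.1 x.2.2.2
      calc (x.1 : G) * x.2 * (x.1 : G)⁻¹ * ((x.1 : G) * x.2 * (x.1 : G)⁻¹) = x.1 * ((x.2 : G) * x.2) * (x.1 : G)⁻¹ := by group
        _ = 1 := by rw [this]; group⟩ : Out M)) ⟨?_, ?_⟩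
  · rintro ⟨b, v⟩ ⟨b', v'⟩ h
    have h0 : (b : G) * v * (b : G)⁻¹ = b' * v' * (b' : G)⁻¹ := congrArg Subtype.val h
    have hcm : ∀ (b : M) (v : HC M z), ((b : G) * v * (b : G)⁻¹) * (b * z * (b : G)⁻¹) =
        (b * z * (b : G)⁻¹) * ((b : G) * v * (b : G)⁻¹) := by
      intro b v
      calc ((b : G) * v * (b : G)⁻¹) * (b * z * (b : G)⁻¹) = b * (v * z) * (b : G)⁻¹ := by group
        _ = b * (z * v) * (b : G)⁻¹ := by rw [v.2.2]
        _ = _ := by group
    have h1 := hcm b v
    have h2 := hcm b' v'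
    rw [← h0] at h2
    have h3 := H.comm_uniq (H.conj_out b.2 v.2.1) (by
      have := H.inv_of_comm v.2.1 v.2.2
      calc (b : G) * v * (b : G)⁻¹ * ((b : G) * v * (b : G)⁻¹) = b * ((v : G) * v) * (b : G)⁻¹ := by group
        _ = 1 := by rw [this]; group) b.2 b'.2 h1 h2
    have h4 : b = b' := Subtype.ext h3
    subst h4
    have h5 : (v : G) = v' := by
      have := mul_right_cancel h0
      exact mul_left_cancel this
    rw [Subtype.ext h5]
  · rintro ⟨u, hu, huu⟩
    obtain ⟨b, hb, h⟩ := H.exists_comm hu huu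
    refine ⟨(⟨b, hb⟩, ⟨b⁻¹ * u * b, ?_, ?_⟩), ?_⟩
    · have := H.conj_out (M.inv_mem hb) hu
      rwa [inv_inv] at this
    · calc b⁻¹ * u * b * z = b⁻¹ * (u * (b * z * b⁻¹)) * b := by group
        _ = b⁻¹ * (b * z * b⁻¹ * u) * b := by rw [h]
        _ = _ := by group
    · apply Subtype.ext
      show b * (b⁻¹ * u * b) * b⁻¹ = u
      group

end Hyp2

end Cfsg.Agent.BTI
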